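import Mathlib
import Cfsg.Agent.H719.Quart.TypeC

/-!
# Fourth roots: the even-dimensional orthogonal groups
-/

set_option autoImplicit false

namespace Cfsg.Agent.H719.Quart

open Finset Cfsg.Agent.H902.Lte Cfsg.Agent.H902.Art

theorem numD_gt {q m : ℕ} (hq : 2 ≤ q) (hm : 4 ≤ m) : 5 * q ^ (m ^ 2) < 8 * num (.D m) q := by
  obtain ⟨k, rfl⟩ := Nat.exists_eq_add_of_le' (show 1 ≤ m by omega)
  have h1 := prodC_gt hq (show 1 ≤ k by omega)
  have h2 : 15 * q ^ (k + 1) ≤ 16 * (q ^ (k + 1) - 1) := by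
    have : 2 ^ 4 ≤ q ^ (k + 1) := (Nat.pow_le_pow_left hq 4).trans (Nat.pow_le_pow_right (by omega) hm)
    omega
  have h3 : (15 * q ^ (k + 1)) * (2 * q ^ (k * (k + 1))) <
      (16 * (q ^ (k + 1) - 1)) * (3 * (∏ i ∈ range k, (q ^ (2 * (i + 1)) - 1))) :=
    Nat.mul_lt_mul_of_le_of_lt h2 h1 (by
      have : 0 < q ^ (k + 1) := pow_pos (by omega) _
      omega)
  have h4 : (15 * q ^ (k + 1)) * (2 * q ^ (k * (k + 1))) = 6 * (5 * q ^ ((k + 1) ^ 2)) := by
    have : (k + 1) ^ 2 = (k + 1) + k * (k + 1) := by ring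
    rw [this, pow_add]; ring
  have h5 : (16 * (q ^ (k + 1) - 1)) * (3 * (∏ i ∈ range k, (q ^ (2 * (i + 1)) - 1))) =
      6 * (8 * num (.D (k + 1)) q) := by
    show _ = 6 * (8 * ((q ^ (k + 1) - 1) * ∏ i ∈ range k, (q ^ (2 * (i + 1)) - 1)))
    ring
  rw [h4, h5] at h3
  exact Nat.lt_of_mul_lt_mul_left h3

theorem numDD_gt {q m : ℕ} (hq : 2 ≤ q) (hm : 4 ≤ m) : 2 * q ^ (m ^ 2) < 3 * num (.DD m) q := by
  obtain ⟨k, rfl⟩ := Nat.exists_eq_add_of_le' (show 1 ≤ m by omega)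
  have h1 := prodC_gt hq (show 1 ≤ k by omega)
  have h3 : q ^ (k + 1) * (2 * q ^ (k * (k + 1))) <
      (q ^ (k + 1) + 1) * (3 * (∏ i ∈ range k, (q ^ (2 * (i + 1)) - 1))) :=
    Nat.mul_lt_mul_of_le_of_lt (by omega) h1 (by omega)
  have h4 : q ^ (k + 1) * (2 * q ^ (k * (k + 1))) = 2 * q ^ ((k + 1) ^ 2) := by
    have : (k + 1) ^ 2 = (k + 1) + k * (k + 1) := by ring
    rw [this, pow_add]; ring
  have h5 : (q ^ (k + 1) + 1) * (3 * (∏ i ∈ range k, (q ^ (2 * (i + 1)) - 1))) =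
      3 * num (.DD (k + 1)) q := by
    show _ = 3 * ((q ^ (k + 1) + 1) * ∏ i ∈ range k, (q ^ (2 * (i + 1)) - 1))
    ring
  rwa [h4, h5] at h3

theorem dd_D_le {q m : ℕ} : dd (.D m) q ≤ 4 := Nat.gcd_le_left _ (by norm_num)

theorem dd_DD_le {q m : ℕ} : dd (.DD m) q ≤ 4 := Nat.gcd_le_left _ (by norm_num)

theorem finD {m p f M r B : ℕ} (h : Real (.D m) p f M) (hr : r.Prime) (hrp : r ≠ p)
    (hB : P r (num (.D m) (p ^ f)) ≤ B) (hb : 32 * B ^ 4 ≤ 5 * (p ^ f) ^ (m * (m - 1) + m ^ 2)) :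
    P r M ^ 4 < M := by
  apply core' h hr hrp
  have hm : 4 ≤ m := h.ok
  have hq := h.q_ge
  set q := p ^ f
  have h1 := numD_gt hq hm
  have h2 : 8 * (P r (num (.D m) q) ^ 4 * dd (.D m) q) < 8 * (q ^ (m * (m - 1)) * num (.D m) q) := by
    calc 8 * (P r (num (.D m) q) ^ 4 * dd (.D m) q) ≤ 8 * (B ^ 4 * 4) :=
          Nat.mul_le_mul_left 8 (Nat.mul_le_mul (Nat.pow_le_pow_left hB 4) dd_D_le)
      _ = 32 * B ^ 4 := by ring
      _ ≤ 5 * q ^ (m * (m - 1) + m ^ 2) := hb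
      _ = q ^ (m * (m - 1)) * (5 * q ^ (m ^ 2)) := by rw [pow_add]; ring
      _ < q ^ (m * (m - 1)) * (8 * num (.D m) q) :=
          Nat.mul_lt_mul_of_pos_left h1 (pow_pos (by omega) _)
      _ = 8 * (q ^ (m * (m - 1)) * num (.D m) q) := by ring
  exact Nat.lt_of_mul_lt_mul_left h2

theorem finDD {m p f M r B : ℕ} (h : Real (.DD m) p f M) (hr : r.Prime) (hrp : r ≠ p)
    (hB : P r (num (.DD m) (p ^ f)) ≤ B) (hb : 6 * B ^ 4 ≤ (p ^ f) ^ (m * (m - 1) + m ^ 2)) :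
    P r M ^ 4 < M := by
  apply core' h hr hrp
  have hm : 4 ≤ m := h.ok
  have hq := h.q_ge
  set q := p ^ f
  have h1 := numDD_gt hq hm
  have h2 : 3 * (P r (num (.DD m) q) ^ 4 * dd (.DD m) q) < 3 * (q ^ (m * (m - 1)) * num (.DD m) q) := by
    calc 3 * (P r (num (.DD m) q) ^ 4 * dd (.DD m) q) ≤ 3 * (B ^ 4 * 4) :=
          Nat.mul_le_mul_left 3 (Nat.mul_le_mul (Nat.pow_le_pow_left hB 4) dd_DD_le)
      _ = 2 * (6 * B ^ 4) := by ring
      _ ≤ 2 * q ^ (m * (m - 1) + m ^ 2) := Nat.mul_le_mul_left 2 hb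
      _ = q ^ (m * (m - 1)) * (2 * q ^ (m ^ 2)) := by rw [pow_add]; ring
      _ < q ^ (m * (m - 1)) * (3 * num (.DD m) q) :=
          Nat.mul_lt_mul_of_pos_left h1 (pow_pos (by omega) _)
      _ = 3 * (q ^ (m * (m - 1)) * num (.DD m) q) := by ring
  exact Nat.lt_of_mul_lt_mul_left h2

theorem numD_dvd {q m : ℕ} (hm : 4 ≤ m) : num (.D m) q ∣ ∏ i ∈ range m, (q ^ (2 * (i + 1)) - 1) := by
  obtain ⟨k, rfl⟩ := Nat.exists_eq_add_of_le' (show 1 ≤ m by omega)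
  rw [Finset.prod_range_succ, mul_comm]
  exact mul_dvd_mul (pow_sub_one_dvd (Dvd.intro_left 2 rfl)) dvd_rfl

theorem numDD_dvd {q m : ℕ} (hq : 2 ≤ q) (hm : 4 ≤ m) :
    num (.DD m) q ∣ ∏ i ∈ range m, (q ^ (2 * (i + 1)) - 1) := by
  obtain ⟨k, rfl⟩ := Nat.exists_eq_add_of_le' (show 1 ≤ m by omega)
  rw [Finset.prod_range_succ, mul_comm]
  exact mul_dvd_mul (pow_add_one_dvd (by omega)) dvd_rfl

/-- explicit instance -/
theorem explicit {X : Sh} {p f M r : ℕ} (h : Real X p f M) (hr : r.Prime) (hrp : r ≠ p) {q k c d : ℕ} (hq : p ^ f = q)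
    (hn : num X q = r ^ k * c) (hc : ¬ r ∣ c) (hd : dd X q ≤ d)
    (hb : (r ^ k) ^ 4 * d < q ^ NN X * (r ^ k * c)) : P r M ^ 4 < M := by
  apply core' h hr hrp
  rw [hq, hn, P_pow_self hr hc]
  exact lt_of_le_of_lt (Nat.mul_le_mul_left _ hd) hb

theorem expo {m : ℕ} (hm : 1 ≤ m) : m * (m - 1) + m ^ 2 + m = 2 * m ^ 2 := by
  obtain ⟨k, rfl⟩ := Nat.exists_eq_add_of_le' hm
  rw [Nat.add_sub_cancel]; ring

/-- `D_m`, `m ≥ 5` -/
theorem quart_D {m p f M r : ℕ} (h : Real (.D m) p f M) (hm : 5 ≤ m) (hr : r.Prime)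
    (hrp : r ≠ p) : P r M ^ 4 < M := by
  have hq := h.q_ge
  have hrq := h.not_dvd_q hr hrp
  have hex := expo (m := m) (by omega)
  have hP : P r (num (.D m) (p ^ f)) ≤ P r (∏ i ∈ range m, ((p ^ f) ^ (2 * (i + 1)) - 1)) :=
    P_mono hr (prod_ne hq m) (numD_dvd (by omega))
  by_cases h23 : p ^ f = 2 ∧ r = 3
  · obtain ⟨hq2, rfl⟩ := h23
    rcases Nat.lt_or_ge m 6 with hm6 | hm6
    · have : m = 5 := by omega
      subst this
      exact explicit h hr hrp hq2 (k := 5) (c := 92225) (d := 1) (by norm_num [num, Finset.prod_range_succ])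
        (by norm_num) (by rfl) (by norm_num [NN])
    · refine finD h hr hrp hP ?_
      rw [hq2]
      have h1 := PC_23 (m := m) (by omega)
      have h2 := three_six_le m
      have h3 : 2 ^ (10 * m) ≤ 2 ^ (m * (m - 1) + m ^ 2) := Nat.pow_le_pow_right (by norm_num) (by nlinarith)
      omega
  by_cases h32 : p ^ f = 3 ∧ r = 2
  · obtain ⟨hq3, rfl⟩ := h32
    rcases Nat.lt_or_ge m 6 with hm6 | hm6
    · have : m = 5 := by omega
      subst this
      exact explicit h hr hrp hq3 (k := 16) (c := 11286275) (d := 4) (by norm_num [num, Finset.prod_range_succ])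
        (by norm_num) dd_D_le (by norm_num [NN])
    · refine finD h hr hrp hP ?_
      rw [hq3]
      have h1 := PC_32 (m := m) (by omega)
      have h2 := two_sixteen_le m
      have h3 : 3 ^ (11 * m) ≤ 3 ^ (m * (m - 1) + m ^ 2) := Nat.pow_le_pow_right (by norm_num) (by nlinarith)
      omega
  have h1 := Dom4.PC_le2 hr hq hrq h23 h32 m
  refine finD h hr hrp (hP.trans h1) ?_
  generalize p ^ f = q at *
  have h3 : 32 ≤ q ^ 5 := by
    calc 32 = 2 ^ 5 := by norm_num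
      _ ≤ q ^ 5 := Nat.pow_le_pow_left hq 5
  calc 32 * (q ^ (2 * m)) ^ 4 ≤ q ^ 5 * (q ^ (2 * m)) ^ 4 := Nat.mul_le_mul_right _ h3
    _ = q ^ (8 * m + 5) := by rw [← pow_mul, ← pow_add]; congr 1; ring
    _ ≤ q ^ (m * (m - 1) + m ^ 2) := Nat.pow_le_pow_right (by omega) (by nlinarith)
    _ ≤ 5 * q ^ (m * (m - 1) + m ^ 2) := by omega

/-- `²D_m`, `m ≥ 5` -/
theorem quart_DD {m p f M r : ℕ} (h : Real (.DD m) p f M) (hm : 5 ≤ m) (hr : r.Prime)
    (hrp : r ≠ p) : P r M ^ 4 < M := by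
  have hq := h.q_ge
  have hrq := h.not_dvd_q hr hrp
  have hex := expo (m := m) (by omega)
  have hP : P r (num (.DD m) (p ^ f)) ≤ P r (∏ i ∈ range m, ((p ^ f) ^ (2 * (i + 1)) - 1)) :=
    P_mono hr (prod_ne hq m) (numDD_dvd hq (by omega))
  by_cases h23 : p ^ f = 2 ∧ r = 3
  · obtain ⟨hq2, rfl⟩ := h23
    rcases Nat.lt_or_ge m 6 with hm6 | hm6
    · have : m = 5 := by omega
      subst this
      exact explicit h hr hrp hq2 (k := 6) (c := 32725) (d := 1) (by norm_num [num, Finset.prod_range_succ])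
        (by norm_num) (by rfl) (by norm_num [NN])
    · refine finDD h hr hrp hP ?_
      rw [hq2]
      have h1 := PC_23 (m := m) (by omega)
      have h2 := three_six_le m
      have h3 : 2 ^ (10 * m) ≤ 2 ^ (m * (m - 1) + m ^ 2) := Nat.pow_le_pow_right (by norm_num) (by nlinarith)
      omega
  by_cases h32 : p ^ f = 3 ∧ r = 2
  · obtain ⟨hq3, rfl⟩ := h32
    rcases Nat.lt_or_ge m 6 with hm6 | hm6
    · have : m = 5 := by omega
      subst this
      exact explicit h hr hrp hq3 (k := 17) (c := 5689775) (d := 4) (by norm_num [num, Finset.prod_range_succ])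
        (by norm_num) dd_DD_le (by norm_num [NN])
    · refine finDD h hr hrp hP ?_
      rw [hq3]
      have h1 := PC_32 (m := m) (by omega)
      have h2 := two_sixteen_le m
      have h3 : 3 ^ (11 * m) ≤ 3 ^ (m * (m - 1) + m ^ 2) := Nat.pow_le_pow_right (by norm_num) (by nlinarith)
      omega
  have h1 := Dom4.PC_le2 hr hq hrq h23 h32 m
  refine finDD h hr hrp (hP.trans h1) ?_
  generalize p ^ f = q at *
  have h3 : 32 ≤ q ^ 5 := by
    calc 32 = 2 ^ 5 := by norm_num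
      _ ≤ q ^ 5 := Nat.pow_le_pow_left hq 5
  calc 6 * (q ^ (2 * m)) ^ 4 ≤ q ^ 5 * (q ^ (2 * m)) ^ 4 := Nat.mul_le_mul_right _ (by omega)
    _ = q ^ (8 * m + 5) := by rw [← pow_mul, ← pow_add]; congr 1; ring
    _ ≤ q ^ (m * (m - 1) + m ^ 2) := Nat.pow_le_pow_right (by omega) (by nlinarith)

theorem num_D4 {q : ℕ} (hq : 2 ≤ q) {r : ℕ} : P r (num (.D 4) q) = P r (num (.C 3) q) * P r (q ^ (2 * 2) - 1) := by
  show P r ((q ^ 4 - 1) * ∏ i ∈ range 3, (q ^ (2 * (i + 1)) - 1)) = _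
  rw [P_mul (sub_one_ne hq (by norm_num)) (prod_ne hq 3), mul_comm]
  rfl

/-- `D₄` -/
theorem quart_D4 {p f M r : ℕ} (h : Real (.D 4) p f M) (h2 : p ^ f ≠ 2) (h3 : p ^ f ≠ 3) (hr : r.Prime)
    (hrp : r ≠ p) : P r M ^ 4 < M := by
  have hq := h.q_ge
  have hrq := h.not_dvd_q hr hrp
  by_cases hr2 : r = 2
  · subst hr2
    have hodd := odd_q h hrp
    have hq5 : 5 ≤ p ^ f := by
      rcases hodd with ⟨k, hk⟩; omega
    apply core h hr hrp
    have hB : P 2 (num (.D 4) (p ^ f)) ≤ 64 * (p ^ f + 1) ^ 4 := by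
      rw [num_D4 hq, fac2 (by omega) hodd (by norm_num), P_two_two]
      have h1 := PC3_two (by omega) hodd
      have h5 := P_two_sq_sub_one_le (q := p ^ f) (by omega) hodd
      calc P 2 (num (.C 3) (p ^ f)) * (P 2 ((p ^ f) ^ 2 - 1) * 2) ≤
            (16 * (p ^ f + 1) ^ 3) * ((2 * (p ^ f + 1)) * 2) :=
            Nat.mul_le_mul h1 (Nat.mul_le_mul_right 2 h5)
        _ = 64 * (p ^ f + 1) ^ 4 := by ring
    have hn := numD_gt (m := 4) hq le_rfl
    have hd : dd (.D 4) (p ^ f) = 4 := by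
      show Nat.gcd 4 ((p ^ f) ^ 4 - 1) = 4
      apply Nat.gcd_eq_left
      obtain ⟨k, hk⟩ := hodd
      rw [hk]
      refine ⟨4 * k ^ 4 + 8 * k ^ 3 + 6 * k ^ 2 + 2 * k, ?_⟩
      have : (2 * k + 1) ^ 4 = 4 * (4 * k ^ 4 + 8 * k ^ 3 + 6 * k ^ 2 + 2 * k) + 1 := by ring
      rw [this, Nat.add_sub_cancel]
    rw [hd, P2_4]
    generalize p ^ f = q at *
    have h1 := pw (x := q) (Q := 5) (c := 32 * 64 ^ 4) (d := 256 * 5) (k := 16) (K := 28) hq5 (by norm_num)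
      (by norm_num) (by norm_num)
    have h6 : 8 * (P 2 (num (.D 4) q) ^ 4 * 4) < 8 * (4 ^ 4 * (q ^ 12 * num (.D 4) q)) := by
      calc 8 * (P 2 (num (.D 4) q) ^ 4 * 4) ≤ 8 * ((64 * (q + 1) ^ 4) ^ 4 * 4) :=
            Nat.mul_le_mul_left 8 (Nat.mul_le_mul_right 4 (Nat.pow_le_pow_left hB 4))
        _ = 32 * 64 ^ 4 * (q + 1) ^ 16 := by ring
        _ < 256 * 5 * q ^ 28 := h1
        _ = 4 ^ 4 * q ^ 12 * (5 * q ^ (4 ^ 2)) := by norm_num; ring
        _ ≤ 4 ^ 4 * q ^ 12 * (8 * num (.D 4) q) := Nat.mul_le_mul_left _ hn.le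
        _ = 8 * (4 ^ 4 * (q ^ 12 * num (.D 4) q)) := by ring
    exact Nat.lt_of_mul_lt_mul_left h6
  · have hq3 : 4 ≤ p ^ f := by omega
    have key : P r (num (.D 4) (p ^ f)) ≤ 3 * (p ^ f + 1) ^ 4 ∨ P r (num (.D 4) (p ^ f)) ≤ ((p ^ f) ^ 2 + 1) ^ 2 ∨
        P r (num (.D 4) (p ^ f)) ≤ (p ^ f) ^ 3 + 1 := by
      obtain ⟨e, R, he, hR1, hR, hRe, hk⟩ := fac hr hr2 hq hrq
      rw [num_D4 hq]
      show P r (∏ i ∈ range 3, ((p ^ f) ^ (2 * (i + 1)) - 1)) * _ ≤ _ ∨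
        P r (∏ i ∈ range 3, ((p ^ f) ^ (2 * (i + 1)) - 1)) * _ ≤ _ ∨
        P r (∏ i ∈ range 3, ((p ^ f) ^ (2 * (i + 1)) - 1)) * _ ≤ _
      rw [P_prod_succ hq, P_prod_succ hq, P_prod_succ hq, P_prod_zero, hk _ (by norm_num),
        hk _ (by norm_num), hk _ (by norm_num)]
      rcases Nat.lt_or_ge 3 e with h | h
      · rw [if_neg (fun hd => by have := Nat.le_of_dvd (by norm_num) hd; omega),
          if_neg (fun hd => by have := Nat.le_of_dvd (by norm_num) hd; omega),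
          if_neg (fun hd => by have := Nat.le_of_dvd (by norm_num) hd; omega)]
        right; right; norm_num
      · have he2 : e = 1 ∨ e = 2 ∨ e = 3 := by omega
        rcases he2 with rfl | rfl | rfl
        · left
          have h2 := (hRe rfl).1
          have h3 := P_three_le (r := r)
          norm_num [P_one, P_two_odd hr hr2]
          calc R * R * (R * P r 3) * R = P r 3 * R ^ 4 := by ring
            _ ≤ 3 * (p ^ f + 1) ^ 4 := Nat.mul_le_mul h3 (Nat.pow_le_pow_left h2 4)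
        · right; left
          norm_num [P_one]
          nlinarith
        · right; right
          norm_num [P_one]
          exact hR
    rcases key with h1 | h1 | h1
    · refine finD h hr hrp h1 ?_
      generalize p ^ f = q at *
      have h1 := pw (x := q) (Q := 4) (c := 32 * 3 ^ 4) (d := 5) (k := 16) (K := 28) hq3 (by norm_num)
        (by norm_num) (by norm_num)
      calc 32 * (3 * (q + 1) ^ 4) ^ 4 = 32 * 3 ^ 4 * (q + 1) ^ 16 := by ring
        _ ≤ 5 * q ^ 28 := h1.le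
        _ = 5 * q ^ (4 * (4 - 1) + 4 ^ 2) := by norm_num
    · refine finD h hr hrp h1 ?_
      generalize p ^ f = q at *
      have hq16 : 16 ≤ q ^ 2 := by nlinarith
      have h1 := pw (x := q ^ 2) (Q := 16) (c := 32) (d := 5) (k := 8) (K := 14) hq16 (by norm_num)
        (by norm_num) (by norm_num)
      calc 32 * ((q ^ 2 + 1) ^ 2) ^ 4 = 32 * (q ^ 2 + 1) ^ 8 := by ring
        _ ≤ 5 * (q ^ 2) ^ 14 := h1.le
        _ = 5 * q ^ (4 * (4 - 1) + 4 ^ 2) := by rw [← pow_mul]; norm_num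
    · refine finD h hr hrp h1 ?_
      generalize p ^ f = q at *
      have hq64 : 64 ≤ q ^ 3 := by
        calc 64 = 4 ^ 3 := by norm_num
          _ ≤ q ^ 3 := Nat.pow_le_pow_left hq3 3
      have h1 := pw (x := q ^ 3) (Q := 64) (c := 32) (d := 5) (k := 4) (K := 9) hq64 (by norm_num)
        (by norm_num) (by norm_num)
      calc 32 * (q ^ 3 + 1) ^ 4 ≤ 5 * (q ^ 3) ^ 9 := h1.le
        _ = 5 * q ^ 27 := by rw [← pow_mul]
        _ ≤ 5 * q ^ (4 * (4 - 1) + 4 ^ 2) :=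
          Nat.mul_le_mul_left 5 (Nat.pow_le_pow_right (by omega) (by norm_num))

theorem num_DD4 {q : ℕ} (hq : 2 ≤ q) {r : ℕ} : P r (num (.DD 4) q) =
    P r (q ^ (2 * 1) - 1) * P r (q ^ (2 * 3) - 1) * P r (q ^ (2 * 4) - 1) := by
  have h1 : num (.DD 4) q = (q ^ (2 * 1) - 1) * (q ^ (2 * 3) - 1) * (q ^ (2 * 4) - 1) := by
    show (q ^ 4 + 1) * ∏ i ∈ range 3, (q ^ (2 * (i + 1)) - 1) = _
    rw [Finset.prod_range_succ, Finset.prod_range_succ, Finset.prod_range_one]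
    have h2 : q ^ (2 * 4) - 1 = (q ^ 4 + 1) * (q ^ 4 - 1) := by
      obtain ⟨t, ht⟩ := Nat.exists_eq_add_of_le' (Nat.one_le_pow 4 q (by omega))
      have h8 : q ^ (2 * 4) = (t + 1) * (t + 1) := by rw [← ht, ← pow_add]
      rw [h8, ht, Nat.add_sub_cancel]
      have : (t + 1) * (t + 1) = (t + 1 + 1) * t + 1 := by ring
      rw [this, Nat.add_sub_cancel]
    rw [h2]
    show (q ^ 4 + 1) * ((q ^ 2 - 1) * (q ^ 4 - 1) * (q ^ 6 - 1)) = (q ^ 2 - 1) * (q ^ 6 - 1) * _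
    ring
  rw [h1, P_mul (Nat.mul_ne_zero (sub_one_ne hq (by norm_num)) (sub_one_ne hq (by norm_num)))
    (sub_one_ne hq (by norm_num)), P_mul (sub_one_ne hq (by norm_num)) (sub_one_ne hq (by norm_num))]

/-- `²D₄` -/
theorem quart_DD4 {p f M r : ℕ} (h : Real (.DD 4) p f M) (hr : r.Prime)
    (hrp : r ≠ p) : P r M ^ 4 < M := by
  have hq := h.q_ge
  have hrq := h.not_dvd_q hr hrp
  by_cases hr2 : r = 2
  · subst hr2
    have hodd := odd_q h hrp
    have hq3 : 3 ≤ p ^ f := by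
      rcases hodd with ⟨k, hk⟩; omega
    apply core h hr hrp
    have hB : P 2 (num (.DD 4) (p ^ f)) ≤ 32 * (p ^ f + 1) ^ 3 := by
      rw [num_DD4 hq, fac2 (by omega) hodd (by norm_num), fac2 (by omega) hodd (by norm_num),
        fac2 (by omega) hodd (by norm_num), P_one, P2_3, P2_4]
      have h5 := P_two_sq_sub_one_le (q := p ^ f) (by omega) hodd
      calc P 2 ((p ^ f) ^ 2 - 1) * 1 * (P 2 ((p ^ f) ^ 2 - 1) * 1) * (P 2 ((p ^ f) ^ 2 - 1) * 4) =
            4 * P 2 ((p ^ f) ^ 2 - 1) ^ 3 := by ring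
        _ ≤ 4 * (2 * (p ^ f + 1)) ^ 3 := Nat.mul_le_mul_left 4 (Nat.pow_le_pow_left h5 3)
        _ = 32 * (p ^ f + 1) ^ 3 := by ring
    have hn := numDD_gt (m := 4) hq le_rfl
    have hd : dd (.DD 4) (p ^ f) = 2 := by
      show Nat.gcd 4 ((p ^ f) ^ 4 + 1) = 2
      obtain ⟨k, hk⟩ := hodd
      have h1 : (p ^ f) ^ 4 + 1 = 2 + (4 * k ^ 4 + 8 * k ^ 3 + 6 * k ^ 2 + 2 * k) * 4 := by rw [hk]; ring
      rw [h1, Nat.gcd_add_mul_right_right]
      rfl
    rw [hd, P_two_two]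
    generalize p ^ f = q at *
    have h1 := pw (x := q) (Q := 3) (c := 6 * 32 ^ 4) (d := 16 * 2) (k := 12) (K := 28) hq3 (by norm_num)
      (by norm_num) (by norm_num)
    have h6 : 3 * (P 2 (num (.DD 4) q) ^ 4 * 2) < 3 * (2 ^ 4 * (q ^ 12 * num (.DD 4) q)) := by
      calc 3 * (P 2 (num (.DD 4) q) ^ 4 * 2) ≤ 3 * ((32 * (q + 1) ^ 3) ^ 4 * 2) :=
            Nat.mul_le_mul_left 3 (Nat.mul_le_mul_right 2 (Nat.pow_le_pow_left hB 4))
        _ = 6 * 32 ^ 4 * (q + 1) ^ 12 := by ring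
        _ < 16 * 2 * q ^ 28 := h1
        _ = 2 ^ 4 * q ^ 12 * (2 * q ^ (4 ^ 2)) := by norm_num; ring
        _ ≤ 2 ^ 4 * q ^ 12 * (3 * num (.DD 4) q) := Nat.mul_le_mul_left _ hn.le
        _ = 3 * (2 ^ 4 * (q ^ 12 * num (.DD 4) q)) := by ring
    exact Nat.lt_of_mul_lt_mul_left h6
  · have key : P r (num (.DD 4) (p ^ f)) ≤ 3 * (p ^ f + 1) ^ 3 ∨ P r (num (.DD 4) (p ^ f)) ≤ (p ^ f) ^ 4 + 1 := by
      obtain ⟨e, R, he, hR1, hR, hRe, hk⟩ := fac hr hr2 hq hrq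
      rw [num_DD4 hq, hk _ (by norm_num), hk _ (by norm_num), hk _ (by norm_num)]
      rcases Nat.lt_or_ge 4 e with h | h
      · rw [if_neg (fun hd => by have := Nat.le_of_dvd (by norm_num) hd; omega),
          if_neg (fun hd => by have := Nat.le_of_dvd (by norm_num) hd; omega),
          if_neg (fun hd => by have := Nat.le_of_dvd (by norm_num) hd; omega)]
        right; norm_num
      · have he2 : e = 1 ∨ e = 2 ∨ e = 3 ∨ e = 4 := by omega
        rcases he2 with rfl | rfl | rfl | rfl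
        · left
          have h2 := (hRe rfl).1
          have h3 := P_three_le (r := r)
          norm_num [P_one, P_four_odd hr hr2]
          calc R * (R * P r 3) * R = P r 3 * R ^ 3 := by ring
            _ ≤ 3 * (p ^ f + 1) ^ 3 := Nat.mul_le_mul h3 (Nat.pow_le_pow_left h2 3)
        · right
          norm_num [P_two_odd hr hr2]
          have h5 : (p ^ f) ^ 2 ≤ (p ^ f) ^ 4 := Nat.pow_le_pow_right (by omega) (by norm_num)
          omega
        · right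
          norm_num [P_one]
          have h5 : (p ^ f) ^ 3 ≤ (p ^ f) ^ 4 := Nat.pow_le_pow_right (by omega) (by norm_num)
          omega
        · right
          norm_num [P_one]
          exact hR
    rcases key with h1 | h1
    · refine finDD h hr hrp h1 ?_
      generalize p ^ f = q at *
      have h1 := pw (x := q) (Q := 2) (c := 6 * 3 ^ 4) (d := 1) (k := 12) (K := 28) hq (by norm_num)
        (by norm_num) (by norm_num)
      calc 6 * (3 * (q + 1) ^ 3) ^ 4 = 6 * 3 ^ 4 * (q + 1) ^ 12 := by ring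
        _ ≤ 1 * q ^ 28 := h1.le
        _ = q ^ (4 * (4 - 1) + 4 ^ 2) := by rw [one_mul]; norm_num
    · refine finDD h hr hrp h1 ?_
      generalize p ^ f = q at *
      have hq16 : 16 ≤ q ^ 4 := by
        calc 16 = 2 ^ 4 := by norm_num
          _ ≤ q ^ 4 := Nat.pow_le_pow_left hq 4
      have h1 := pw (x := q ^ 4) (Q := 16) (c := 6) (d := 1) (k := 4) (K := 7) hq16 (by norm_num)
        (by norm_num) (by norm_num)
      calc 6 * (q ^ 4 + 1) ^ 4 ≤ 1 * (q ^ 4) ^ 7 := h1.le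
        _ = q ^ (4 * (4 - 1) + 4 ^ 2) := by rw [one_mul, ← pow_mul]; norm_num

end Cfsg.Agent.H719.Quart
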