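import Mathlib
import Cfsg.Agent.H719.Quart.TypeD

/-!
# Fourth roots: the exceptional groups
-/

set_option autoImplicit false

namespace Cfsg.Agent.H719.Quart

open Finset Cfsg.Agent.H902.Lte Cfsg.Agent.H902.Art

theorem eq_of_dd_one {X : Sh} {p f M : ℕ} (h : Real X p f M) (hd : ∀ q, dd X q = 1) :
    M = (p ^ f) ^ NN X * num X (p ^ f) := by
  have := h.eq
  rwa [hd, one_mul] at this

/-- `G₂` -/
theorem quart_G2 {p f M r : ℕ} (h : Real .G2 p f M) (h3 : p ^ f ≠ 3) (hr : r.Prime)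
    (hrp : r ≠ p) : P r M ^ 4 < M := by
  have hq := h.q_ge
  have hrq := h.not_dvd_q hr hrp
  have hq3 : 3 ≤ p ^ f := h.ok
  have hle := h.P_other_le hr hrp
  have hM := eq_of_dd_one h fun _ => rfl
  have hq4 : 4 ≤ p ^ f := by omega
  have hnum : 7 * (p ^ f) ^ 8 ≤ 8 * num .G2 (p ^ f) := by
    show 7 * (p ^ f) ^ 8 ≤ 8 * (((p ^ f) ^ 2 - 1) * ((p ^ f) ^ 6 - 1))
    have h1 : 15 * (p ^ f) ^ 2 ≤ 16 * ((p ^ f) ^ 2 - 1) := by
      have : 16 ≤ (p ^ f) ^ 2 := by nlinarith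
      omega
    have h2 : 15 * (p ^ f) ^ 6 ≤ 16 * ((p ^ f) ^ 6 - 1) := by
      have : 4 ^ 6 ≤ (p ^ f) ^ 6 := Nat.pow_le_pow_left hq4 6
      omega
    have h3 := Nat.mul_le_mul h1 h2
    have h4 : (15 * (p ^ f) ^ 2) * (15 * (p ^ f) ^ 6) = 225 * (p ^ f) ^ 8 := by ring
    have h5 : (16 * ((p ^ f) ^ 2 - 1)) * (16 * ((p ^ f) ^ 6 - 1)) = 256 * (((p ^ f) ^ 2 - 1) * ((p ^ f) ^ 6 - 1)) := by
      ring
    rw [h4, h5] at h3
    omega
  have fin : ∀ B : ℕ, P r (num .G2 (p ^ f)) ≤ B → 8 * B ^ 4 < 7 * (p ^ f) ^ 14 → P r M ^ 4 < M := by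
    intro B h1 h2
    have h4 : 8 * P r M ^ 4 < 8 * M := by
      calc 8 * P r M ^ 4 ≤ 8 * B ^ 4 := Nat.mul_le_mul_left 8 (Nat.pow_le_pow_left (hle.trans h1) 4)
        _ < 7 * (p ^ f) ^ 14 := h2
        _ = (p ^ f) ^ 6 * (7 * (p ^ f) ^ 8) := by ring
        _ ≤ (p ^ f) ^ 6 * (8 * num .G2 (p ^ f)) := Nat.mul_le_mul_left _ hnum
        _ = 8 * ((p ^ f) ^ NN .G2 * num .G2 (p ^ f)) := by show _ = 8 * ((p ^ f) ^ 6 * _); ring
        _ = 8 * M := by rw [← hM]
    omega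
  have hsplit : P r (num .G2 (p ^ f)) = P r ((p ^ f) ^ (2 * 1) - 1) * P r ((p ^ f) ^ (2 * 3) - 1) :=
    P_mul (sub_one_ne hq (by norm_num)) (sub_one_ne hq (by norm_num))
  by_cases hr2 : r = 2
  · subst hr2
    have hodd := odd_q h hrp
    have hq5 : 5 ≤ p ^ f := by
      rcases hodd with ⟨k, hk⟩; omega
    have h5 := P_two_sq_sub_one_le (q := p ^ f) (by omega) hodd
    refine fin (4 * (p ^ f + 1) ^ 2) ?_ ?_
    · rw [hsplit, fac2 hq hodd (by norm_num), fac2 hq hodd (by norm_num), P_one, P2_3]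
      nlinarith
    · generalize p ^ f = q at *
      have h1 := pw (x := q) (Q := 5) (c := 8 * 4 ^ 4) (d := 7) (k := 8) (K := 14) hq5 (by norm_num) (by norm_num)
        (by norm_num)
      calc 8 * (4 * (q + 1) ^ 2) ^ 4 = 8 * 4 ^ 4 * (q + 1) ^ 8 := by ring
        _ < 7 * q ^ 14 := h1
  · obtain ⟨e, R, he, hR1, hR, hRe, hk⟩ := fac hr hr2 hq hrq
    rw [hsplit, hk _ (by norm_num), hk _ (by norm_num)] at fin
    by_cases h1 : e = 1
    · subst h1
      have h2 := (hRe rfl).1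
      have h3 := P_three_le (r := r)
      refine fin (3 * (p ^ f + 1) ^ 2) ?_ ?_
      · norm_num [P_one]
        calc R * (R * P r 3) = P r 3 * R ^ 2 := by ring
          _ ≤ 3 * (p ^ f + 1) ^ 2 := Nat.mul_le_mul h3 (Nat.pow_le_pow_left h2 2)
      · generalize p ^ f = q at *
        have h1 := pw (x := q) (Q := 4) (c := 8 * 3 ^ 4) (d := 7) (k := 8) (K := 14) hq4 (by norm_num) (by norm_num)
          (by norm_num)
        calc 8 * (3 * (q + 1) ^ 2) ^ 4 = 8 * 3 ^ 4 * (q + 1) ^ 8 := by ring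
          _ < 7 * q ^ 14 := h1
    · rw [if_neg (fun hd => h1 (Nat.dvd_one.1 hd)), one_mul] at fin
      by_cases h3 : e = 3
      · subst h3
        refine fin ((p ^ f) ^ 3 + 1) ?_ ?_
        · norm_num [P_one]; exact hR
        · generalize p ^ f = q at *
          have hq64 : 64 ≤ q ^ 3 := by
            calc 64 = 4 ^ 3 := by norm_num
              _ ≤ q ^ 3 := Nat.pow_le_pow_left hq4 3
          have h1 := pw (x := q ^ 3) (Q := 64) (c := 8) (d := 7 * 16) (k := 4) (K := 4) hq64 (by norm_num)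
            (by norm_num) (by norm_num)
          have hq16 : 16 ≤ q ^ 2 := by nlinarith
          calc 8 * (q ^ 3 + 1) ^ 4 < 7 * 16 * (q ^ 3) ^ 4 := h1
            _ ≤ 7 * q ^ 2 * (q ^ 3) ^ 4 := Nat.mul_le_mul_right _ (Nat.mul_le_mul_left 7 hq16)
            _ = 7 * q ^ 14 := by ring
      · have h4 : ¬ e ∣ 3 := fun hd => by
          rcases (Nat.dvd_prime Nat.prime_three).1 hd with h5 | h5
          · exact h1 h5
          · exact h3 h5
        rw [if_neg h4] at fin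
        refine fin 1 le_rfl ?_
        have : 4 ^ 14 ≤ (p ^ f) ^ 14 := Nat.pow_le_pow_left hq4 14
        omega

theorem dvd_iff_twelve (e : ℕ) : e ∣ 6 → e = 1 ∨ e = 2 ∨ e = 3 ∨ e = 6 := by
  intro h
  have h1 := Nat.le_of_dvd (by norm_num) h
  interval_cases e
  · omega
  · omega
  · omega
  · omega
  · norm_num at h
  · norm_num at h
  · omega

/-- `³D₄` -/
theorem quart_TD4 {p f M r : ℕ} (h : Real .TD4 p f M) (hr : r.Prime)
    (hrp : r ≠ p) : P r M ^ 4 < M := by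
  have hq := h.q_ge
  have hrq := h.not_dvd_q hr hrp
  have hle := h.P_other_le hr hrp
  have hM := eq_of_dd_one h fun _ => rfl
  have hne1 : (p ^ f) ^ 2 - 1 ≠ 0 := sub_one_ne hq (by norm_num)
  have hne2 : (p ^ f) ^ 6 - 1 ≠ 0 := sub_one_ne hq (by norm_num)
  have hne4 : (p ^ f) ^ 4 - 1 ≠ 0 := sub_one_ne hq (by norm_num)
  have hnum : 3 * (p ^ f) ^ 16 ≤ 4 * num .TD4 (p ^ f) := by
    show 3 * (p ^ f) ^ 16 ≤ 4 * (((p ^ f) ^ 2 - 1) * ((p ^ f) ^ 6 - 1) * ((p ^ f) ^ 8 + (p ^ f) ^ 4 + 1))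
    generalize p ^ f = q at *
    have h1 : 3 * q ^ 2 ≤ 4 * (q ^ 2 - 1) := by
      have : 4 ≤ q ^ 2 := by nlinarith
      omega
    have h2 : q ^ 14 ≤ (q ^ 6 - 1) * (q ^ 8 + q ^ 4 + 1) := by
      obtain ⟨t, ht⟩ := Nat.exists_eq_add_of_le' (Nat.one_le_pow 6 q (by omega))
      have h3 : t * (q ^ 8 + q ^ 4 + 1) + (q ^ 8 + q ^ 4 + 1) = q ^ 14 + q ^ 10 + q ^ 6 := by
        have : t * (q ^ 8 + q ^ 4 + 1) + (q ^ 8 + q ^ 4 + 1) = (t + 1) * (q ^ 8 + q ^ 4 + 1) := by ring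
        rw [this, ← ht]; ring
      have h4 : q ^ 8 ≤ q ^ 10 := Nat.pow_le_pow_right (by omega) (by norm_num)
      have h5 : q ^ 4 + 1 ≤ q ^ 6 := by
        have h6 : q ^ 6 = q ^ 2 * q ^ 4 := by ring
        have h7 : 4 ≤ q ^ 2 := by nlinarith
        have h8 : 1 ≤ q ^ 4 := Nat.one_le_pow _ _ (by omega)
        rw [h6]; nlinarith
      rw [ht, Nat.add_sub_cancel]
      omega
    calc 3 * q ^ 16 = (3 * q ^ 2) * q ^ 14 := by ring
      _ ≤ (4 * (q ^ 2 - 1)) * ((q ^ 6 - 1) * (q ^ 8 + q ^ 4 + 1)) := Nat.mul_le_mul h1 h2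
      _ = _ := by ring
  have fin : ∀ B : ℕ, P r (num .TD4 (p ^ f)) ≤ B → 4 * B ^ 4 < 3 * (p ^ f) ^ 28 → P r M ^ 4 < M := by
    intro B h1 h2
    have h4 : 4 * P r M ^ 4 < 4 * M := by
      calc 4 * P r M ^ 4 ≤ 4 * B ^ 4 := Nat.mul_le_mul_left 4 (Nat.pow_le_pow_left (hle.trans h1) 4)
        _ < 3 * (p ^ f) ^ 28 := h2
        _ = (p ^ f) ^ 12 * (3 * (p ^ f) ^ 16) := by ring
        _ ≤ (p ^ f) ^ 12 * (4 * num .TD4 (p ^ f)) := Nat.mul_le_mul_left _ hnum
        _ = 4 * ((p ^ f) ^ NN .TD4 * num .TD4 (p ^ f)) := by show _ = 4 * ((p ^ f) ^ 12 * _); ring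
        _ = 4 * M := by rw [← hM]
    omega
  have hsplit : P r (num .TD4 (p ^ f)) = P r ((p ^ f) ^ 2 - 1) * P r ((p ^ f) ^ 6 - 1) *
      P r ((p ^ f) ^ 8 + (p ^ f) ^ 4 + 1) := by
    show P r (((p ^ f) ^ 2 - 1) * ((p ^ f) ^ 6 - 1) * ((p ^ f) ^ 8 + (p ^ f) ^ 4 + 1)) = _
    rw [P_mul (Nat.mul_ne_zero hne1 hne2) (by omega), P_mul hne1 hne2]
  by_cases hr2 : r = 2
  · subst hr2
    have hodd := odd_q h hrp
    have hq3 : 3 ≤ p ^ f := by
      rcases hodd with ⟨k, hk⟩; omega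
    have h5 := P_two_sq_sub_one_le (q := p ^ f) (by omega) hodd
    have h6 := two_part_six (q := p ^ f) (by omega) hodd
    refine fin (4 * (p ^ f + 1) ^ 2) ?_ ?_
    · have h2 : Odd ((p ^ f) ^ 8 + (p ^ f) ^ 4 + 1) := by
        have h3 : Even ((p ^ f) ^ 8 + (p ^ f) ^ 4) := (hodd.pow).add_odd (hodd.pow)
        exact h3.add_one
      rw [hsplit, P_two_of_odd h2, mul_one]
      calc _ ≤ (2 * (p ^ f + 1)) * (2 * (p ^ f + 1)) := Nat.mul_le_mul h5 h6
        _ = _ := by ring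
    · generalize p ^ f = q at *
      have h1 := pw (x := q) (Q := 3) (c := 4 * 4 ^ 4) (d := 3) (k := 8) (K := 28) hq3 (by norm_num) (by norm_num)
        (by norm_num)
      calc 4 * (4 * (q + 1) ^ 2) ^ 4 = 4 * 4 ^ 4 * (q + 1) ^ 8 := by ring
        _ < 3 * q ^ 28 := h1
  · obtain ⟨e, R, he, hR1, hR, hRe, hk⟩ := fac hr hr2 hq hrq
    -- the `r`-part of `q^8 + q^4 + 1`
    have h12 : P r ((p ^ f) ^ 8 + (p ^ f) ^ 4 + 1) * P r ((p ^ f) ^ (2 * 2) - 1) = P r ((p ^ f) ^ (2 * 6) - 1) := by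
      rw [← P_mul (by omega) (sub_one_ne hq (by norm_num))]
      congr 1
      obtain ⟨t, ht⟩ := Nat.exists_eq_add_of_le' (Nat.one_le_pow 4 (p ^ f) (by omega))
      have h4 : (p ^ f) ^ 8 = (t + 1) * (t + 1) := by rw [← ht]; ring
      have h6 : (p ^ f) ^ (2 * 6) = (t + 1) * (t + 1) * (t + 1) := by rw [← ht]; ring
      have h7 : (p ^ f) ^ (2 * 2) = t + 1 := ht
      rw [h6, h7, h4]
      have : (t + 1) * (t + 1) * (t + 1) = ((t + 1) * (t + 1) + (t + 1) + 1) * t + 1 := by ring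
      rw [this, Nat.add_sub_cancel, Nat.add_sub_cancel]
    have ha : P r ((p ^ f) ^ 2 - 1) = if e ∣ 1 then R * P r (1 / e) else 1 := hk 1 (by norm_num)
    have hb : P r ((p ^ f) ^ 6 - 1) = if e ∣ 3 then R * P r (3 / e) else 1 := hk 3 (by norm_num)
    rw [hk 2 (by norm_num), hk 6 (by norm_num)] at h12
    rw [hsplit, ha, hb] at fin
    have hR0 : 0 < R := hR1
    have hq28 : 2 ^ 28 ≤ (p ^ f) ^ 28 := Nat.pow_le_pow_left hq 28
    by_cases h6 : e ∣ 6
    · rcases dvd_iff_twelve e h6 with rfl | rfl | rfl | rfl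
      · have h2 := (hRe rfl).1
        have h3 := P_three_le (r := r)
        norm_num [P_one, P_two_odd hr hr2] at h12 fin
        have h5 : P r ((p ^ f) ^ 8 + (p ^ f) ^ 4 + 1) ≤ 3 := by
          have h7 : P r ((p ^ f) ^ 8 + (p ^ f) ^ 4 + 1) * R ≤ 3 * R := by
            rw [h12, mul_comm]; exact Nat.mul_le_mul_right R (P_six_le hr hr2)
          exact Nat.le_of_mul_le_mul_right h7 hR0
        refine fin (9 * (p ^ f + 1) ^ 2) ?_ ?_
        · calc R * (R * P r 3) * P r ((p ^ f) ^ 8 + (p ^ f) ^ 4 + 1) =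
                (P r 3 * P r ((p ^ f) ^ 8 + (p ^ f) ^ 4 + 1)) * R ^ 2 := by ring
            _ ≤ (3 * 3) * (p ^ f + 1) ^ 2 := Nat.mul_le_mul (Nat.mul_le_mul h3 h5) (Nat.pow_le_pow_left h2 2)
        · generalize p ^ f = q at *
          have h1 := pw (x := q) (Q := 2) (c := 4 * 9 ^ 4) (d := 3) (k := 8) (K := 28) hq (by norm_num) (by norm_num)
            (by norm_num)
          calc 4 * (9 * (q + 1) ^ 2) ^ 4 = 4 * 9 ^ 4 * (q + 1) ^ 8 := by ring
            _ < 3 * q ^ 28 := h1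
      · norm_num [P_one] at h12 fin
        have h5 : P r ((p ^ f) ^ 8 + (p ^ f) ^ 4 + 1) ≤ 3 := by
          have h3 := P_three_le (r := r)
          have h7 : P r ((p ^ f) ^ 8 + (p ^ f) ^ 4 + 1) * R ≤ 3 * R := by
            rw [h12, mul_comm]; exact Nat.mul_le_mul_right R h3
          exact Nat.le_of_mul_le_mul_right h7 hR0
        exact fin 3 h5 (by omega)
      · norm_num [P_one, P_two_odd hr hr2] at h12 fin
        refine fin (((p ^ f) ^ 3 + 1) ^ 2) ?_ ?_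
        · rw [h12]; nlinarith
        · generalize p ^ f = q at *
          have hq8 : 8 ≤ q ^ 3 := by
            calc 8 = 2 ^ 3 := by norm_num
              _ ≤ q ^ 3 := Nat.pow_le_pow_left hq 3
          have h1 := pw (x := q ^ 3) (Q := 8) (c := 4) (d := 48) (k := 8) (K := 8) hq8 (by norm_num)
            (by norm_num) (by norm_num)
          have hq4 : 16 ≤ q ^ 4 := by
            calc 16 = 2 ^ 4 := by norm_num
              _ ≤ q ^ 4 := Nat.pow_le_pow_left hq 4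
          calc 4 * ((q ^ 3 + 1) ^ 2) ^ 4 = 4 * (q ^ 3 + 1) ^ 8 := by ring
            _ < 48 * (q ^ 3) ^ 8 := h1
            _ ≤ 3 * q ^ 4 * (q ^ 3) ^ 8 := Nat.mul_le_mul_right _ (by omega)
            _ = 3 * q ^ 28 := by ring
      · norm_num [P_one] at h12 fin
        refine fin ((p ^ f) ^ 6 + 1) ?_ ?_
        · rw [h12]; exact hR
        · generalize p ^ f = q at *
          have hq64 : 64 ≤ q ^ 6 := by
            calc 64 = 2 ^ 6 := by norm_num
              _ ≤ q ^ 6 := Nat.pow_le_pow_left hq 6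
          have h1 := pw (x := q ^ 6) (Q := 64) (c := 4) (d := 48) (k := 4) (K := 4) hq64 (by norm_num)
            (by norm_num) (by norm_num)
          have hq4 : 16 ≤ q ^ 4 := by
            calc 16 = 2 ^ 4 := by norm_num
              _ ≤ q ^ 4 := Nat.pow_le_pow_left hq 4
          calc 4 * (q ^ 6 + 1) ^ 4 < 48 * (q ^ 6) ^ 4 := h1
            _ ≤ 3 * q ^ 4 * (q ^ 6) ^ 4 := Nat.mul_le_mul_right _ (by omega)
            _ = 3 * q ^ 28 := by ring
    · have h1 : ¬ e ∣ 1 := fun hd => h6 (hd.trans (by norm_num))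
      have h3 : ¬ e ∣ 3 := fun hd => h6 (hd.trans (by norm_num))
      rw [if_neg h1, if_neg h3, one_mul, one_mul] at fin
      rw [if_neg h6] at h12
      exact fin 1 (Nat.le_of_dvd one_pos (Dvd.intro _ h12)) (by omega)

/-- `²E₆` -/
theorem quart_TE6 {p f M r : ℕ} (h : Real .TE6 p f M) (hr : r.Prime) (hrp : r ≠ p) :
    P r M ^ 4 < M := by
  have hq := h.q_ge
  have hrq := h.not_dvd_q hr hrp
  by_cases h23 : p ^ f = 2 ∧ r = 3
  · obtain ⟨hq2, rfl⟩ := h23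
    exact explicit h hr hrp hq2 (k := 10) (c := 56581525) (d := 3) (by norm_num [num])
      (by norm_num) (by decide) (by norm_num [NN])
  by_cases h32 : p ^ f = 3 ∧ r = 2
  · obtain ⟨hq2, rfl⟩ := h32
    exact explicit h hr hrp hq2 (k := 19) (c := 185999899774325) (d := 1) (by norm_num [num])
      (by norm_num) (by decide) (by norm_num [NN])
  apply core' h hr hrp
  generalize p ^ f = q at *
  have h1 : P r (num .TE6 q) ≤ q ^ (2 * 9) := by
    refine Dom4.sub_prod_le2 hr hq hrq h23 h32 {0, 4, 2, 3, 8, 5} 9 (by decide) (N := num .TE6 q) ?_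
    rw [Finset.prod_insert (by decide), Finset.prod_insert (by decide),
      Finset.prod_insert (by decide), Finset.prod_insert (by decide),
      Finset.prod_insert (by decide), Finset.prod_singleton]
    show (q ^ 2 - 1) * (q ^ 5 + 1) * (q ^ 6 - 1) * (q ^ 8 - 1) * (q ^ 9 + 1) * (q ^ 12 - 1) ∣ _
    rw [mul_assoc, mul_assoc, mul_assoc, mul_assoc]
    exact mul_dvd_mul dvd_rfl (mul_dvd_mul (pow_add_one_dvd (by omega)) (mul_dvd_mul dvd_rfl
      (mul_dvd_mul dvd_rfl (mul_dvd_mul (pow_add_one_dvd (by omega)) dvd_rfl))))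
  have h2 : q ^ 42 < 16 * num .TE6 q := by
    have := Nat.mul_lt_mul'' (Nat.mul_lt_mul'' (Nat.mul_lt_mul'' (Nat.mul_lt_mul''
      (Nat.mul_lt_mul'' (Dom4.half hq (le_refl 2)) (show q ^ 5 < q ^ 5 + 1 from Nat.lt_succ_self _))
      (Dom4.half hq (by norm_num : 2 ≤ 6))) (Dom4.half hq (by norm_num : 2 ≤ 8)))
      (show q ^ 9 < q ^ 9 + 1 from Nat.lt_succ_self _)) (Dom4.half hq (by norm_num : 2 ≤ 12))
    calc q ^ 42 = q ^ 2 * q ^ 5 * q ^ 6 * q ^ 8 * q ^ 9 * q ^ 12 := by ring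
      _ < _ := this
      _ = 16 * num .TE6 q := by
        show _ = 16 * ((q ^ 2 - 1) * (q ^ 5 + 1) * (q ^ 6 - 1) * (q ^ 8 - 1) * (q ^ 9 + 1) *
          (q ^ 12 - 1))
        ring
  have h3 : dd .TE6 q ≤ 3 := Nat.gcd_le_left _ (by norm_num)
  have h48 : 48 ≤ q ^ 6 := by
    have : 2 ^ 6 ≤ q ^ 6 := Nat.pow_le_pow_left hq 6
    omega
  have h5 : 16 * (P r (num .TE6 q) ^ 4 * dd .TE6 q) < 16 * (q ^ 36 * num .TE6 q) := by
    calc 16 * (P r (num .TE6 q) ^ 4 * dd .TE6 q) ≤ 16 * ((q ^ (2 * 9)) ^ 4 * 3) :=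
          Nat.mul_le_mul_left 16 (Nat.mul_le_mul (Nat.pow_le_pow_left h1 4) h3)
      _ = 48 * q ^ 72 := by rw [← pow_mul]; ring
      _ ≤ q ^ 6 * q ^ 72 := Nat.mul_le_mul_right _ h48
      _ = q ^ 36 * q ^ 42 := by ring
      _ < q ^ 36 * (16 * num .TE6 q) := Nat.mul_lt_mul_of_pos_left h2 (pow_pos (by omega) _)
      _ = _ := by ring
  exact Nat.lt_of_mul_lt_mul_left h5

/-- Suzuki groups -/
theorem quart_Sz {p f M r : ℕ} (h : Real .Sz p f M) (hr : r.Prime) (hrp : r ≠ p) :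
    P r M ^ 4 < M := by
  have hle := h.P_other_le hr hrp
  have hM := eq_of_dd_one h fun _ => rfl
  obtain ⟨hp2, hf, hf3⟩ := h.ok
  subst hp2
  obtain ⟨m, hm⟩ := hf
  have hm1 : 1 ≤ m := by omega
  set s := 2 ^ m with hs
  have hs2 : 2 ≤ s := (show 2 = 2 ^ 1 by norm_num) ▸ Nat.pow_le_pow_right (by norm_num) hm1
  have hq : 2 ^ f = 2 * s ^ 2 := by rw [hm, hs, pow_succ, mul_comm, pow_mul, ← pow_mul, mul_comm 2 m, pow_mul]
  rw [hq] at hle hM
  have h1 : (2 * s ^ 2) ^ 2 + 1 = (2 * s ^ 2 + 2 * s + 1) * (2 * s ^ 2 + 1 - 2 * s) := by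
    have h2 : 2 * s ≤ 2 * s ^ 2 + 1 := by nlinarith
    zify [h2]
    ring
  have hA : 2 * s ^ 2 - 1 ≠ 0 := by
    have : 1 ≤ s ^ 2 := Nat.one_le_pow _ _ (by omega)
    omega
  have hss : s ^ 2 = s * s := sq s
  have hss2 : 2 * s ≤ s * s := Nat.mul_le_mul_right s hs2
  have hC : 2 * s ^ 2 + 1 - 2 * s ≠ 0 := by omega
  have hbnd : ∀ N, N ≠ 0 → N ≤ 2 * s ^ 2 + 2 * s + 1 → P r N ≤ 2 * s ^ 2 + 2 * s + 1 :=
    fun N h0 h => (P_le h0).trans h
  have hrs : ¬ r ∣ s := by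
    intro h
    have := hr.dvd_of_dvd_pow (hs ▸ h)
    exact hrp ((Nat.prime_dvd_prime_iff_eq hr Nat.prime_two).1 this)
  have hB : P r (num .Sz (2 * s ^ 2)) ≤ 2 * s ^ 2 + 2 * s + 1 := by
    show P r ((2 * s ^ 2 - 1) * ((2 * s ^ 2) ^ 2 + 1)) ≤ _
    by_cases h2 : r ∣ 2 * s ^ 2 - 1
    · have h3 : ¬ r ∣ (2 * s ^ 2) ^ 2 + 1 := by
        intro h4
        have h5 : (2 * s ^ 2) ^ 2 + 1 = (2 * s ^ 2 - 1) * (2 * s ^ 2 + 1) + 2 := by
          have h6 : 1 ≤ 2 * s ^ 2 := by omega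
          zify [h6]; ring
        rw [h5] at h4
        have h6 := (Nat.dvd_add_right (h2.mul_right _)).1 h4
        exact hrp ((Nat.prime_dvd_prime_iff_eq hr Nat.prime_two).1 h6)
      rw [P_mul hA (by positivity), P_eq_one h3, mul_one]
      exact hbnd _ hA (by omega)
    · rw [P_mul hA (by positivity), P_eq_one h2, one_mul, h1, P_mul (by positivity) hC]
      by_cases h3 : r ∣ 2 * s ^ 2 + 2 * s + 1
      · have h4 : ¬ r ∣ 2 * s ^ 2 + 1 - 2 * s := by
          intro h5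
          have h6 := Nat.dvd_sub h3 h5
          have h7 : 2 * s ^ 2 + 2 * s + 1 - (2 * s ^ 2 + 1 - 2 * s) = 2 * 2 * s := by omega
          rw [h7, hr.dvd_mul, hr.dvd_mul] at h6
          rcases h6 with (h6 | h6) | h6
          · exact hrp ((Nat.prime_dvd_prime_iff_eq hr Nat.prime_two).1 h6)
          · exact hrp ((Nat.prime_dvd_prime_iff_eq hr Nat.prime_two).1 h6)
          · exact hrs h6
        rw [P_eq_one h4, mul_one]
        exact hbnd _ (by positivity) le_rfl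
      · rw [P_eq_one h3, one_mul]
        exact hbnd _ hC (by omega)
  have hM2 : M = 4 * s ^ 4 * ((2 * s ^ 2 - 1) * (4 * s ^ 4 + 1)) := by
    rw [hM]
    show (2 * s ^ 2) ^ 2 * ((2 * s ^ 2 - 1) * ((2 * s ^ 2) ^ 2 + 1)) = _
    have : (2 * s ^ 2) ^ 2 = 4 * s ^ 4 := by ring
    rw [this]
  refine lt_of_le_of_lt (Nat.pow_le_pow_left (hle.trans hB) 4) ?_
  rw [hM2]
  clear_value s
  rcases Nat.lt_or_ge s 3 with h3 | h3
  · have : s = 2 := by omega
    subst this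
    norm_num
  · have h4 : 2 * s ^ 2 + 2 * s + 1 ≤ 3 * s ^ 2 := by nlinarith
    have h5 : s ^ 2 ≤ 2 * s ^ 2 - 1 := by
      have : 1 ≤ s ^ 2 := Nat.one_le_pow _ _ (by omega)
      omega
    have h9 : 9 ≤ s ^ 2 := by nlinarith
    have hpos : 0 < s ^ 8 := pow_pos (by omega) _
    calc (2 * s ^ 2 + 2 * s + 1) ^ 4 ≤ (3 * s ^ 2) ^ 4 := Nat.pow_le_pow_left h4 4
      _ = 81 * s ^ 8 := by ring
      _ < 16 * 9 * s ^ 8 := by omega
      _ ≤ 16 * s ^ 2 * s ^ 8 := Nat.mul_le_mul_right _ (Nat.mul_le_mul_left 16 h9)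
      _ = 4 * s ^ 4 * (s ^ 2 * (4 * s ^ 4)) := by ring
      _ ≤ 4 * s ^ 4 * ((2 * s ^ 2 - 1) * (4 * s ^ 4 + 1)) :=
        Nat.mul_le_mul_left _ (Nat.mul_le_mul h5 (by omega))

/-- Ree groups -/
theorem quart_Ree {p f M r : ℕ} (h : Real .Ree p f M) (hr : r.Prime) (hrp : r ≠ p) :
    P r M ^ 4 < M := by
  have hle := h.P_other_le hr hrp
  have hM := eq_of_dd_one h fun _ => rfl
  obtain ⟨hp2, hf, hf3⟩ := h.ok
  subst hp2
  have hodd : Odd (3 ^ f) := Odd.pow (by decide)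
  have hq27 : 27 ≤ 3 ^ f := by
    calc 27 = 3 ^ 3 := by norm_num
      _ ≤ 3 ^ f := Nat.pow_le_pow_right (by norm_num) hf3
  obtain ⟨m, hm⟩ := hf
  have hm1 : 1 ≤ m := by omega
  have hq : 3 ^ f = 3 * (3 ^ m) ^ 2 := by rw [hm, pow_succ, mul_comm, pow_mul, ← pow_mul, mul_comm 2 m, pow_mul]
  have hs3 : 3 ≤ 3 ^ m := (show 3 = 3 ^ 1 by norm_num) ▸ Nat.pow_le_pow_right (by norm_num) hm1
  have hrs : ¬ r ∣ 3 ^ m := fun h => hrp ((Nat.prime_dvd_prime_iff_eq hr Nat.prime_three).1 (hr.dvd_of_dvd_pow h))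
  have hr3 : ¬ r ∣ 3 := fun h => hrp ((Nat.prime_dvd_prime_iff_eq hr Nat.prime_three).1 h)
  generalize 3 ^ m = s at *
  generalize 3 ^ f = q at *
  have hq0 : q - 1 ≠ 0 := by omega
  have hle2 : q ≤ q ^ 2 + 1 := by nlinarith
  have hfac : q ^ 3 + 1 = (q + 1) * (q ^ 2 + 1 - q) := by
    zify [hle2]; ring
  have hc0 : q ^ 2 + 1 - q ≠ 0 := by
    have : q < q ^ 2 + 1 := by nlinarith
    omega
  have h3s : 3 * s ≤ q := by rw [hq]; nlinarith
  have hsplit : P r (num .Ree q) = P r (q - 1) * (P r (q + 1) * P r (q ^ 2 + 1 - q)) := by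
    show P r ((q - 1) * (q ^ 3 + 1)) = _
    rw [hfac, P_mul hq0 (by positivity), P_mul (by omega) hc0]
  have hB : P r (num .Ree q) ≤ 2 * (q + 1) := by
    rw [hsplit]
    by_cases hr2 : r = 2
    · subst hr2
      have h4 : Odd (q ^ 2 + 1 - q) := by
        obtain ⟨k, hk⟩ := hodd
        have h5 : q ^ 2 + 1 - q = 2 * (2 * k ^ 2 + k) + 1 := by
          rw [hk] at hle2 ⊢
          zify [hle2]; ring
        rw [h5]; exact odd_two_mul_add_one _
      rw [P_two_of_odd h4, mul_one, ← P_mul hq0 (by omega)]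
      have h5 : (q - 1) * (q + 1) = q ^ 2 - 1 := by
        have h6 : 1 ≤ q := by omega
        have h7 : 1 ≤ q ^ 2 := Nat.one_le_pow _ _ (by omega)
        zify [h6, h7]; ring
      rw [h5]
      exact P_two_sq_sub_one_le (by omega) hodd
    · have h22 : ∀ a : ℕ, r ∣ a → a = 2 → False := fun a h1 h2 => by
        rw [h2] at h1
        exact hr2 ((Nat.prime_dvd_prime_iff_eq hr Nat.prime_two).1 h1)
      by_cases h1 : r ∣ q - 1
      · have h2 : ¬ r ∣ q + 1 := fun h => h22 _ (Nat.dvd_sub h h1) (by omega)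
        have h3 : ¬ r ∣ q ^ 2 + 1 - q := by
          intro h
          have h4 : q ^ 2 + 1 - q = (q - 1) * q + 1 := by
            have h6 : 1 ≤ q := by omega
            zify [h6, hle2]; ring
          rw [h4] at h
          have h5 := (Nat.dvd_add_right (h1.mul_right q)).1 h
          exact hr.one_lt.ne' (Nat.dvd_one.1 h5)
        rw [P_eq_one h2, P_eq_one h3]
        have := P_le (r := r) hq0
        omega
      · rw [P_eq_one h1, one_mul]
        by_cases h2 : r ∣ q + 1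
        · have h3 : ¬ r ∣ q ^ 2 + 1 - q := by
            intro h
            -- `(q + 1)^2 = (q^2 - q + 1) + 3 q`
            have h5 : (q + 1) * (q + 1) = (q ^ 2 + 1 - q) + 3 * q := by
              zify [hle2]; ring
            have h6 : r ∣ 3 * q := by
              have : r ∣ (q ^ 2 + 1 - q) + 3 * q := by rw [← h5]; exact h2.mul_right _
              exact (Nat.dvd_add_right h).1 this
            rcases (hr.dvd_mul).1 h6 with h7 | h7
            · exact hr3 h7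
            · have h8 := (Nat.dvd_add_right h7).1 h2
              exact hr.one_lt.ne' (Nat.dvd_one.1 h8)
          rw [P_eq_one h3, mul_one]
          have := P_le (r := r) (show q + 1 ≠ 0 by omega)
          omega
        · rw [P_eq_one h2, one_mul]
          have h3s' : 3 * s ≤ q + 1 := by omega
          have h4 : q ^ 2 + 1 - q = (q + 3 * s + 1) * (q + 1 - 3 * s) := by
            have h5 : (3 * (s : ℤ)) ^ 2 = 3 * q := by rw [hq]; push_cast; ring
            zify [hle2, h3s']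
            have h6 : ((q : ℤ) + 3 * s + 1) * (q + 1 - 3 * s) = (q + 1) ^ 2 - (3 * s) ^ 2 := by ring
            rw [h6, h5]; ring
          have h5 : q + 1 - 3 * s ≠ 0 := by omega
          rw [h4, P_mul (by omega) h5]
          by_cases h6 : r ∣ q + 3 * s + 1
          · have h7 : ¬ r ∣ q + 1 - 3 * s := by
              intro h
              have h8 := Nat.dvd_sub h6 h
              have h9 : q + 3 * s + 1 - (q + 1 - 3 * s) = 2 * 3 * s := by omega
              rw [h9, hr.dvd_mul, hr.dvd_mul] at h8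
              rcases h8 with (h8 | h8) | h8
              · exact h22 _ h8 rfl
              · exact hr3 h8
              · exact hrs h8
            rw [P_eq_one h7, mul_one]
            have := P_le (r := r) (show q + 3 * s + 1 ≠ 0 by omega)
            omega
          · rw [P_eq_one h6, one_mul]
            have := P_le (r := r) h5
            omega
  have h1 : 32 * (q + 1) ^ 4 < 1 * q ^ 7 :=
    pw (x := q) (Q := 27) (c := 32) (d := 1) (k := 4) (K := 7) hq27 (by norm_num) (by norm_num) (by norm_num)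
  have hM2 : M = q ^ 3 * ((q - 1) * (q ^ 3 + 1)) := hM
  have h2 : q ≤ 2 * (q - 1) := by omega
  have h3 : 2 * P r M ^ 4 < 2 * M := by
    calc 2 * P r M ^ 4 ≤ 2 * (2 * (q + 1)) ^ 4 := Nat.mul_le_mul_left 2 (Nat.pow_le_pow_left (hle.trans hB) 4)
      _ = 32 * (q + 1) ^ 4 := by ring
      _ < 1 * q ^ 7 := h1
      _ = q ^ 3 * (q * q ^ 3) := by ring
      _ ≤ q ^ 3 * ((2 * (q - 1)) * (q ^ 3 + 1)) := Nat.mul_le_mul_left _ (Nat.mul_le_mul h2 (by omega))
      _ = 2 * M := by rw [hM2]; ring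
  omega

/-- large Ree groups -/
theorem quart_TF4 {p f M r : ℕ} (h : Real .TF4 p f M) (hr : r.Prime) (hrp : r ≠ p) :
    P r M ^ 4 < M := by
  have hq := h.q_ge
  have hrq := h.not_dvd_q hr hrp
  have hle := h.P_other_le hr hrp
  have hM := eq_of_dd_one h fun _ => rfl
  obtain ⟨hp2, hf, hf3⟩ := h.ok
  subst hp2
  have hq8 : 8 ≤ 2 ^ f := by
    calc 8 = 2 ^ 3 := by norm_num
      _ ≤ 2 ^ f := Nat.pow_le_pow_right (by norm_num) hf3
  generalize 2 ^ f = q at *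
  have h1 : 1 ≤ q := by omega
  have hne1 : q - 1 ≠ 0 := by omega
  have hne4 : q ^ 4 - 1 ≠ 0 := sub_one_ne hq (by norm_num)
  have hnum : q ^ 14 ≤ 4 * num .TF4 q := by
    show q ^ 14 ≤ 4 * ((q - 1) * (q ^ 3 + 1) * (q ^ 4 - 1) * (q ^ 6 + 1))
    have h2 : q ≤ 2 * (q - 1) := by omega
    have h3 : q ^ 4 ≤ 2 * (q ^ 4 - 1) := by
      have : 2 ^ 4 ≤ q ^ 4 := Nat.pow_le_pow_left hq 4
      omega
    calc q ^ 14 = q * q ^ 3 * q ^ 4 * q ^ 6 := by ring
      _ ≤ (2 * (q - 1)) * (q ^ 3 + 1) * (2 * (q ^ 4 - 1)) * (q ^ 6 + 1) :=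
        Nat.mul_le_mul (Nat.mul_le_mul (Nat.mul_le_mul h2 (by omega)) h3) (by omega)
      _ = _ := by ring
  have fin : ∀ B : ℕ, P r (num .TF4 q) ≤ B → 4 * B ^ 4 < q ^ 26 → P r M ^ 4 < M := by
    intro B h1 h2
    have h4 : 4 * P r M ^ 4 < 4 * M := by
      calc 4 * P r M ^ 4 ≤ 4 * B ^ 4 := Nat.mul_le_mul_left 4 (Nat.pow_le_pow_left (hle.trans h1) 4)
        _ < q ^ 26 := h2
        _ = q ^ 12 * q ^ 14 := by ring
        _ ≤ q ^ 12 * (4 * num .TF4 q) := Nat.mul_le_mul_left _ hnum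
        _ = 4 * (q ^ NN .TF4 * num .TF4 q) := by show _ = 4 * (q ^ 12 * _); ring
        _ = 4 * M := by rw [← hM]
    omega
  obtain ⟨e, R, he, hR1, hR, hRe, hk⟩ := fac hr hrp hq hrq
  have hsplit : P r (num .TF4 q) ≤ P r (q ^ (2 * 1) - 1) * P r (q ^ (2 * 3) - 1) * P r (q ^ (2 * 2) - 1) *
      P r (q ^ (2 * 6) - 1) := by
    show P r ((q - 1) * (q ^ 3 + 1) * (q ^ 4 - 1) * (q ^ 6 + 1)) ≤ _
    rw [P_mul (Nat.mul_ne_zero (Nat.mul_ne_zero hne1 (by omega)) hne4) (by omega),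
      P_mul (Nat.mul_ne_zero hne1 (by omega)) hne4, P_mul hne1 (by omega)]
    refine Nat.mul_le_mul (Nat.mul_le_mul (Nat.mul_le_mul ?_ ?_) le_rfl) ?_
    · refine P_mono hr (sub_one_ne hq (by norm_num)) ?_
      have := pow_sub_one_dvd (q := q) (a := 1) (b := 2) (by norm_num)
      rwa [pow_one] at this
    · exact P_mono hr (sub_one_ne hq (by norm_num)) (pow_add_one_dvd h1)
    · exact P_mono hr (sub_one_ne hq (by norm_num)) (pow_add_one_dvd h1)
  rw [hk _ (by norm_num), hk _ (by norm_num), hk _ (by norm_num), hk _ (by norm_num)] at hsplit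
  have hq26 : 8 ^ 26 ≤ q ^ 26 := Nat.pow_le_pow_left hq8 26
  by_cases h6 : e ∣ 6
  · rcases dvd_iff_twelve e h6 with rfl | rfl | rfl | rfl
    · have h2 := (hRe rfl).1
      have h3 := P_three_le (r := r)
      have h36 := P_six_le hr hrp
      norm_num [P_one, P_two_odd hr hrp] at hsplit
      refine fin (9 * (q + 1) ^ 4) ?_ ?_
      · calc P r (num .TF4 q) ≤ R * (R * P r 3) * R * (R * P r 6) := hsplit
          _ = (P r 3 * P r 6) * R ^ 4 := by ring
          _ ≤ (3 * 3) * (q + 1) ^ 4 := Nat.mul_le_mul (Nat.mul_le_mul h3 h36) (Nat.pow_le_pow_left h2 4)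
      · have h1 := pw (x := q) (Q := 8) (c := 4 * 9 ^ 4) (d := 1) (k := 16) (K := 26) hq8 (by norm_num) (by norm_num)
          (by norm_num)
        calc 4 * (9 * (q + 1) ^ 4) ^ 4 = 4 * 9 ^ 4 * (q + 1) ^ 16 := by ring
          _ < 1 * q ^ 26 := h1
          _ = q ^ 26 := one_mul _
    · norm_num [P_one] at hsplit
      have h3 := P_three_le (r := r)
      refine fin (3 * (q ^ 2 + 1) ^ 2) ?_ ?_
      · calc P r (num .TF4 q) ≤ R * (R * P r 3) := hsplit
          _ = P r 3 * R ^ 2 := by ring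
          _ ≤ 3 * (q ^ 2 + 1) ^ 2 := Nat.mul_le_mul h3 (Nat.pow_le_pow_left hR 2)
      · have hq64 : 64 ≤ q ^ 2 := by nlinarith
        have h1 := pw (x := q ^ 2) (Q := 64) (c := 4 * 3 ^ 4) (d := 1) (k := 8) (K := 13) hq64 (by norm_num) (by norm_num)
          (by norm_num)
        calc 4 * (3 * (q ^ 2 + 1) ^ 2) ^ 4 = 4 * 3 ^ 4 * (q ^ 2 + 1) ^ 8 := by ring
          _ < 1 * (q ^ 2) ^ 13 := h1
          _ = q ^ 26 := by rw [one_mul, ← pow_mul]
    · norm_num [P_one, P_two_odd hr hrp] at hsplit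
      refine fin ((q ^ 3 + 1) ^ 2) ?_ ?_
      · calc P r (num .TF4 q) ≤ R * R := hsplit
          _ = R ^ 2 := by ring
          _ ≤ (q ^ 3 + 1) ^ 2 := Nat.pow_le_pow_left hR 2
      · have hq512 : 512 ≤ q ^ 3 := by
          calc 512 = 8 ^ 3 := by norm_num
            _ ≤ q ^ 3 := Nat.pow_le_pow_left hq8 3
        have hq64 : 64 ≤ q ^ 2 := by nlinarith
        have h1 := pw (x := q ^ 3) (Q := 512) (c := 4) (d := 64) (k := 8) (K := 8) hq512 (by norm_num)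
          (by norm_num) (by norm_num)
        calc 4 * ((q ^ 3 + 1) ^ 2) ^ 4 = 4 * (q ^ 3 + 1) ^ 8 := by ring
          _ < 64 * (q ^ 3) ^ 8 := h1
          _ ≤ q ^ 2 * (q ^ 3) ^ 8 := Nat.mul_le_mul_right _ hq64
          _ = q ^ 26 := by ring
    · norm_num [P_one] at hsplit
      refine fin (q ^ 6 + 1) (hsplit.trans hR) ?_
      have hq6 : 8 ^ 6 ≤ q ^ 6 := Nat.pow_le_pow_left hq8 6
      have hq64 : 64 ≤ q ^ 2 := by nlinarith
      have h1 := pw (x := q ^ 6) (Q := 8 ^ 6) (c := 4) (d := 64) (k := 4) (K := 4) hq6 (by norm_num)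
        (by norm_num) (by norm_num)
      calc 4 * (q ^ 6 + 1) ^ 4 < 64 * (q ^ 6) ^ 4 := h1
        _ ≤ q ^ 2 * (q ^ 6) ^ 4 := Nat.mul_le_mul_right _ hq64
        _ = q ^ 26 := by ring
  · have h1 : ¬ e ∣ 1 := fun hd => h6 (hd.trans (by norm_num))
    have h2 : ¬ e ∣ 2 := fun hd => h6 (hd.trans (by norm_num))
    have h3 : ¬ e ∣ 3 := fun hd => h6 (hd.trans (by norm_num))
    rw [if_neg h1, if_neg h3, if_neg h2, if_neg h6] at hsplit
    refine fin 1 hsplit ?_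
    omega

end Cfsg.Agent.H719.Quart
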