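import Mathlib
import Cfsg.Agent.H719.Quart.TypeU

/-!
# Fourth roots: the unitary groups, II
-/

set_option autoImplicit false

namespace Cfsg.Agent.H719.Quart

open Finset Cfsg.Agent.H902.Lte Cfsg.Agent.H902.Art

theorem U4_4 {p f M r : ℕ} (h : Real (.U 4) p f M) (hq : p ^ f = 4) (hr : r.Prime) (hrp : r ≠ p) :
    P r M ^ 4 < M := by
  refine list_real h hr hrp hq 1 (by decide) [(2, 12), (3, 2), (5, 3), (13, 1), (17, 1)] (by decide +kernel) ?_ (by decide +kernel)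
    (by decide +kernel)
  intro x hx
  fin_cases hx <;> norm_num

theorem U4_5 {p f M r : ℕ} (h : Real (.U 4) p f M) (hq : p ^ f = 5) (hr : r.Prime) (hrp : r ≠ p) :
    P r M ^ 4 < M := by
  refine list_real h hr hrp hq 2 (by decide) [(2, 7), (3, 4), (5, 6), (7, 1), (13, 1)] (by decide +kernel) ?_ (by decide +kernel)
    (by decide +kernel)
  intro x hx
  fin_cases hx <;> norm_num

theorem U4_7 {p f M r : ℕ} (h : Real (.U 4) p f M) (hq : p ^ f = 7) (hr : r.Prime) (hrp : r ≠ p) :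
    P r M ^ 4 < M := by
  refine list_real h hr hrp hq 4 (by decide) [(2, 10), (3, 2), (5, 2), (7, 6), (43, 1)] (by decide +kernel) ?_ (by decide +kernel)
    (by decide +kernel)
  intro x hx
  fin_cases hx <;> norm_num

theorem U4_8 {p f M r : ℕ} (h : Real (.U 4) p f M) (hq : p ^ f = 8) (hr : r.Prime) (hrp : r ≠ p) :
    P r M ^ 4 < M := by
  refine list_real h hr hrp hq 1 (by decide) [(2, 18), (3, 7), (5, 1), (7, 2), (13, 1), (19, 1)] (by decide +kernel) ?_ (by decide +kernel)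
    (by decide +kernel)
  intro x hx
  fin_cases hx <;> norm_num

theorem U4_9 {p f M r : ℕ} (h : Real (.U 4) p f M) (hq : p ^ f = 9) (hr : r.Prime) (hrp : r ≠ p) :
    P r M ^ 4 < M := by
  refine list_real h hr hrp hq 2 (by decide) [(2, 9), (3, 12), (5, 3), (41, 1), (73, 1)] (by decide +kernel) ?_ (by decide +kernel)
    (by decide +kernel)
  intro x hx
  fin_cases hx <;> norm_num

theorem U4_11 {p f M r : ℕ} (h : Real (.U 4) p f M) (hq : p ^ f = 11) (hr : r.Prime) (hrp : r ≠ p) :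
    P r M ^ 4 < M := by
  refine list_real h hr hrp hq 4 (by decide) [(2, 7), (3, 4), (5, 2), (11, 6), (37, 1), (61, 1)] (by decide +kernel) ?_ (by decide +kernel)
    (by decide +kernel)
  intro x hx
  fin_cases hx <;> norm_num

theorem U4_13 {p f M r : ℕ} (h : Real (.U 4) p f M) (hq : p ^ f = 13) (hr : r.Prime) (hrp : r ≠ p) :
    P r M ^ 4 < M := by
  refine list_real h hr hrp hq 2 (by decide) [(2, 7), (3, 2), (5, 1), (7, 3), (13, 6), (17, 1), (157, 1)] (by decide +kernel) ?_ (by decide +kernel)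
    (by decide +kernel)
  intro x hx
  fin_cases hx <;> norm_num

theorem U5_4 {p f M r : ℕ} (h : Real (.U 5) p f M) (hq : p ^ f = 4) (hr : r.Prime) (hrp : r ≠ p) :
    P r M ^ 4 < M := by
  refine list_real h hr hrp hq 5 (by decide) [(2, 20), (3, 2), (5, 4), (13, 1), (17, 1), (41, 1)] (by decide +kernel) ?_ (by decide +kernel)
    (by decide +kernel)
  intro x hx
  fin_cases hx <;> norm_num

theorem U5_5 {p f M r : ℕ} (h : Real (.U 5) p f M) (hq : p ^ f = 5) (hr : r.Prime) (hrp : r ≠ p) :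
    P r M ^ 4 < M := by
  refine list_real h hr hrp hq 1 (by decide) [(2, 9), (3, 5), (5, 10), (7, 1), (13, 1), (521, 1)] (by decide +kernel) ?_ (by decide +kernel)
    (by decide +kernel)
  intro x hx
  fin_cases hx <;> norm_num


/-- `U₄` -/
theorem quart_U4 {p f M r : ℕ} (h : Real (.U 4) p f M) (h2 : p ^ f ≠ 2) (h3 : p ^ f ≠ 3) (hr : r.Prime)
    (hrp : r ≠ p) : P r M ^ 4 < M := by
  have hq := h.q_ge
  rcases Nat.lt_or_ge (p ^ f) 14 with h14 | h14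
  · have h6 : p ^ f ≠ 6 := fun h' =>
      not_pp h.hp (a := 2) (b := 3) (by norm_num) (by norm_num) (by norm_num) ⟨1, by rw [h']⟩
    have h10 : p ^ f ≠ 10 := fun h' =>
      not_pp h.hp (a := 2) (b := 5) (by norm_num) (by norm_num) (by norm_num) ⟨1, by rw [h']⟩
    have h12 : p ^ f ≠ 12 := fun h' =>
      not_pp h.hp (a := 2) (b := 3) (by norm_num) (by norm_num) (by norm_num) ⟨2, by rw [h']⟩
    have hc : p ^ f = 4 ∨ p ^ f = 5 ∨ p ^ f = 7 ∨ p ^ f = 8 ∨ p ^ f = 9 ∨ p ^ f = 11 ∨ p ^ f = 13 := by omega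
    rcases hc with hx | hx | hx | hx | hx | hx | hx
    · exact U4_4 h hx hr hrp
    · exact U4_5 h hx hr hrp
    · exact U4_7 h hx hr hrp
    · exact U4_8 h hx hr hrp
    · exact U4_9 h hx hr hrp
    · exact U4_11 h hx hr hrp
    · exact U4_13 h hx hr hrp
  · exact quart_U4_aux h h14 hr hrp

/-- the case of large order `e` -/
theorem big_e {r q n e R : ℕ} (hr : r.Prime) (hr2 : r ≠ 2) (hq : 2 ≤ q) (he : 2 ≤ e) (hR : R ≤ q ^ e)
    (hn : 6 ≤ n) : (R ^ (n / e) * r ^ padicValNat r (n / e).factorial) ^ 4 ≤ q ^ (6 * n - 4) := by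
  have hq0 : 0 < q := by omega
  rcases Nat.eq_zero_or_pos (n / e) with h0 | h0
  · rw [h0, pow_zero, one_mul, fac0 hr, one_pow]
    exact Nat.one_le_pow _ _ hq0
  · set a := n / e with ha
    have hae : a * e ≤ n := Nat.div_mul_le_self n e
    have h2a : 2 * a ≤ n := by
      calc 2 * a ≤ e * a := Nat.mul_le_mul_right _ he
        _ = a * e := mul_comm _ _
        _ ≤ n := hae
    have hr3 : 3 ≤ r := by have := hr.two_le; omega
    have h1 := pow_val_factorial_le hr hr3 (a := a) (by omega)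
    have h3 : 9 ≤ q ^ 4 := by
      have : 2 ^ 4 ≤ q ^ 4 := Nat.pow_le_pow_left hq 4
      omega
    calc (R ^ a * r ^ padicValNat r a.factorial) ^ 4 = (R ^ a) ^ 4 * ((r ^ padicValNat r a.factorial) ^ 2) ^ 2 := by
          rw [mul_pow, ← pow_mul (r ^ padicValNat r a.factorial) 2 2]
      _ ≤ ((q ^ e) ^ a) ^ 4 * (3 ^ (a - 1)) ^ 2 :=
          Nat.mul_le_mul (Nat.pow_le_pow_left (Nat.pow_le_pow_left hR a) 4) (Nat.pow_le_pow_left h1 2)
      _ = q ^ (4 * (a * e)) * 9 ^ (a - 1) := by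
          have h9 : (9 : ℕ) = 3 ^ 2 := by norm_num
          rw [h9, ← pow_mul, ← pow_mul, ← pow_mul, ← pow_mul]
          congr 1
          · congr 1; ring
          · congr 1; ring
      _ ≤ q ^ (4 * n) * (q ^ 4) ^ (a - 1) :=
          Nat.mul_le_mul (Nat.pow_le_pow_right hq0 (by omega)) (Nat.pow_le_pow_left h3 _)
      _ = q ^ (4 * n + 4 * (a - 1)) := by rw [← pow_mul, ← pow_add]
      _ ≤ q ^ (6 * n - 4) := Nat.pow_le_pow_right hq0 (by omega)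

/-- `U₅` -/
theorem quart_U5 {p f M r : ℕ} (h : Real (.U 5) p f M) (h2 : p ^ f ≠ 2) (h3 : p ^ f ≠ 3) (hr : r.Prime)
    (hrp : r ≠ p) : P r M ^ 4 < M := by
  have hq := h.q_ge
  have hrq := h.not_dvd_q hr hrp
  rcases Nat.lt_or_ge (p ^ f) 6 with h6 | h6
  · have hc : p ^ f = 4 ∨ p ^ f = 5 := by omega
    rcases hc with hx | hx
    · exact U5_4 h hx hr hrp
    · exact U5_5 h hx hr hrp
  have fin : ∀ B : ℕ, P r (num (.U 5) (p ^ f)) ≤ B → 10 * B ^ 4 ≤ (p ^ f) ^ 24 → P r M ^ 4 < M := by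
    intro B h1 h2
    exact finU h hr hrp h1 (dd_U_le (by norm_num)) (K := 24) (by norm_num) h2
  by_cases hr2 : r = 2
  · subst hr2
    have hodd := odd_q h hrp
    have h1 := PU_two (n := 5) (by omega) hodd (by norm_num)
    have h2 : 2 ^ padicValNat 2 (Nat.factorial (5 / 2)) = 2 := by
      rw [facP Nat.prime_two]; exact P_two_two
    rw [h2] at h1
    have hA := A_le (by omega) hodd
    have h7' : 7 ≤ p ^ f := by rcases hodd with ⟨k, hk⟩; omega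
    refine fin (8 * (p ^ f + 1) ^ 4) ?_ ?_
    · rw [h1]
      calc (P 2 (p ^ f + 1) * P 2 ((p ^ f) ^ 2 - 1)) ^ ((5 + 1) / 2 - 1) *
            P 2 ((p ^ f) ^ 2 - 1) ^ (5 / 2 + 1 - (5 + 1) / 2) * 2 =
            (P 2 (p ^ f + 1) * P 2 ((p ^ f) ^ 2 - 1)) ^ 2 * 2 := by norm_num
        _ ≤ (2 * (p ^ f + 1) ^ 2) ^ 2 * 2 := Nat.mul_le_mul_right 2 (Nat.pow_le_pow_left hA 2)
        _ = 8 * (p ^ f + 1) ^ 4 := by ring
    · generalize p ^ f = q at *
      have h7 := pw (x := q) (Q := 7) (c := 10 * 8 ^ 4) (d := 1) (k := 16) (K := 24) h7' (by norm_num)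
        (by norm_num) (by norm_num)
      calc 10 * (8 * (q + 1) ^ 4) ^ 4 = 10 * 8 ^ 4 * (q + 1) ^ 16 := by ring
        _ ≤ 1 * q ^ 24 := h7.le
        _ = q ^ 24 := one_mul _
  · rcases PU_split hr hr2 hq hrq (n := 5) (by norm_num) with ⟨-, h1⟩ | ⟨e, R, he, hR1, hRe, hRev, h1⟩
    · refine fin (5 * (p ^ f + 1) ^ 4) ?_ ?_
      · rw [h1, mul_comm]
        exact Nat.mul_le_mul (fac_five hr hr2) (Nat.pow_le_pow_left (P_le (by omega)) _)
      · generalize p ^ f = q at *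
        have h7 := pw (x := q) (Q := 6) (c := 10 * 5 ^ 4) (d := 1) (k := 16) (K := 24) h6 (by norm_num)
          (by norm_num) (by norm_num)
        calc 10 * (5 * (q + 1) ^ 4) ^ 4 = 10 * 5 ^ 4 * (q + 1) ^ 16 := by ring
          _ ≤ 1 * q ^ 24 := h7.le
          _ = q ^ 24 := one_mul _
    · rw [h1] at fin
      have hq4 : 10 ≤ (p ^ f) ^ 4 := by
        have : 6 ^ 4 ≤ (p ^ f) ^ 4 := Nat.pow_le_pow_left h6 4
        omega
      refine fin ((p ^ f) ^ 5) ?_ ?_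
      · have hcase : e = 2 ∨ (3 ≤ e ∧ e ≤ 5) ∨ 6 ≤ e := by omega
        rcases hcase with rfl | ⟨h3, h5⟩ | h5
        · show R ^ 2 * r ^ padicValNat r (Nat.factorial 2) ≤ _
          rw [fac_two hr hr2, mul_one]
          calc R ^ 2 ≤ ((p ^ f) ^ 2) ^ 2 := Nat.pow_le_pow_left hRe 2
            _ = (p ^ f) ^ 4 := by rw [← pow_mul]
            _ ≤ (p ^ f) ^ 5 := Nat.pow_le_pow_right (by omega) (by norm_num)
        · have hd : 5 / e = 1 := by
            apply Nat.div_eq_of_lt_le <;> omega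
          rw [hd, fac1 hr, mul_one, pow_one]
          exact hRe.trans (Nat.pow_le_pow_right (by omega) h5)
        · have hz : 5 / e = 0 := Nat.div_eq_of_lt (by omega)
          rw [hz, pow_zero, one_mul, fac0 hr]
          exact Nat.one_le_pow _ _ (by omega)
      · calc 10 * ((p ^ f) ^ 5) ^ 4 ≤ (p ^ f) ^ 4 * ((p ^ f) ^ 5) ^ 4 := Nat.mul_le_mul_right _ hq4
          _ = (p ^ f) ^ 24 := by ring

theorem sq_expo {n : ℕ} (hn : 1 ≤ n) : n ^ 2 - 1 + 1 = n ^ 2 := Nat.sub_add_cancel (Nat.one_le_pow _ _ hn)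

/-- `U_n`, `n ≥ 6`, odd `r` -/
theorem quart_Un_odd {n p f M r : ℕ} (h : Real (.U n) p f M) (hn : 6 ≤ n) (h6 : ¬ (n = 6 ∧ p ^ f = 2))
    (h7 : ¬ (n = 7 ∧ p ^ f = 2)) (hr : r.Prime) (hrp : r ≠ p) (hr2 : r ≠ 2) : P r M ^ 4 < M := by
  have hq := h.q_ge
  have hrq := h.not_dvd_q hr hrp
  have hr3 : 3 ≤ r := by have := hr.two_le; omega
  obtain ⟨K, hK⟩ : ∃ K, K + 1 = n ^ 2 := ⟨n ^ 2 - 1, sq_expo (by omega)⟩
  rcases PU_split hr hr2 hq hrq (n := n) (by omega) with ⟨hd, h1⟩ | ⟨e, R, he, hR1, hRe, hRev, h1⟩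
  · have hKn : K = (n + 1) * (n - 1) := by
      obtain ⟨m, rfl⟩ := Nat.exists_eq_add_of_le' (show 1 ≤ n by omega)
      rw [Nat.add_sub_cancel]
      have : (m + 1) ^ 2 = (m + 1 + 1) * m + 1 := by ring
      omega
    have hB : P r (num (.U n) (p ^ f)) ^ 4 ≤ (9 * (p ^ f + 1) ^ 4) ^ (n - 1) := by
      have hfac := pow_val_factorial_le hr hr3 (a := n) (by omega)
      have hPq : P r (p ^ f + 1) ≤ p ^ f + 1 := P_le (by omega)
      rw [h1]
      calc (P r (p ^ f + 1) ^ (n - 1) * r ^ padicValNat r n.factorial) ^ 4 =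
            (P r (p ^ f + 1) ^ (n - 1)) ^ 4 * ((r ^ padicValNat r n.factorial) ^ 2) ^ 2 := by
            rw [mul_pow, ← pow_mul (r ^ padicValNat r n.factorial) 2 2]
        _ ≤ ((p ^ f + 1) ^ (n - 1)) ^ 4 * (3 ^ (n - 1)) ^ 2 :=
            Nat.mul_le_mul (Nat.pow_le_pow_left (Nat.pow_le_pow_left hPq _) 4) (Nat.pow_le_pow_left hfac 2)
        _ = (9 * (p ^ f + 1) ^ 4) ^ (n - 1) := by
            have h9 : (9 : ℕ) = 3 ^ 2 := by norm_num
            rw [h9, mul_pow, ← pow_mul, ← pow_mul, ← pow_mul, ← pow_mul, mul_comm (n - 1) 4, mul_comm (n - 1) 2,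
              mul_comm]
    by_cases h8 : n = 8 ∧ p ^ f = 2
    · obtain ⟨rfl, hx⟩ := h8
      have hr3' : r = 3 := by
        rw [hx] at hd
        exact (Nat.prime_dvd_prime_iff_eq hr Nat.prime_three).1 hd
      subst hr3'
      exact explicit h hr hrp hx (k := 9) (c := 1407175) (d := 1) (by norm_num [num, Finset.prod_range_succ])
        (by norm_num) (by decide) (by norm_num [NN])
    refine finU h hr hrp le_rfl dd_U_le' (K := K) hK ?_
    refine (Nat.mul_le_mul_left _ hB).trans ?_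
    by_cases hq2 : p ^ f = 2
    · rw [hq2]
      rcases Nat.lt_or_ge n 9 with h9 | h9
      · -- `n = 8`
        exact absurd ⟨by omega, hq2⟩ h8
      · rw [hKn]
        have h5 : 6 * 729 ^ (n - 1) ≤ 1024 ^ (n - 1) := by
          obtain ⟨m, rfl⟩ := Nat.exists_eq_add_of_le' h9
          have : m + 9 - 1 = m + 8 := by omega
          rw [this, pow_add, pow_add]
          have h6 : 729 ^ m ≤ 1024 ^ m := Nat.pow_le_pow_left (by norm_num) m
          have h7 : 6 * 729 ^ 8 ≤ 1024 ^ 8 := by norm_num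
          calc 6 * (729 ^ m * 729 ^ 8) = 729 ^ m * (6 * 729 ^ 8) := by ring
            _ ≤ 1024 ^ m * 1024 ^ 8 := Nat.mul_le_mul h6 h7
        calc 2 * (2 + 1) * (9 * (2 + 1) ^ 4) ^ (n - 1) = 6 * 729 ^ (n - 1) := by norm_num
          _ ≤ 1024 ^ (n - 1) := h5
          _ = 2 ^ (10 * (n - 1)) := by rw [pow_mul]; norm_num
          _ ≤ 2 ^ ((n + 1) * (n - 1)) := Nat.pow_le_pow_right (by norm_num) (Nat.mul_le_mul_right _ (by omega))
    · have hq4 : 4 ≤ p ^ f := by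
        by_contra hcon
        have h3 : p ^ f = 3 := by omega
        rw [h3] at hd
        have : r ∣ 2 ^ 2 := by simpa using hd
        exact hr2 ((Nat.prime_dvd_prime_iff_eq hr Nat.prime_two).1 (hr.dvd_of_dvd_pow this))
      rw [hKn]
      generalize p ^ f = q at *
      rcases Nat.lt_or_ge q 5 with h5 | h5
      · have hq4' : q = 4 := by omega
        subst hq4'
        have h5 : 10 * 5625 ^ (n - 1) ≤ 16384 ^ (n - 1) := by
          obtain ⟨m, rfl⟩ := Nat.exists_eq_add_of_le' hn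
          have : m + 6 - 1 = m + 5 := by omega
          rw [this, pow_add, pow_add]
          have h6 : 5625 ^ m ≤ 16384 ^ m := Nat.pow_le_pow_left (by norm_num) m
          have h7 : 10 * 5625 ^ 5 ≤ 16384 ^ 5 := by norm_num
          calc 10 * (5625 ^ m * 5625 ^ 5) = 5625 ^ m * (10 * 5625 ^ 5) := by ring
            _ ≤ 16384 ^ m * 16384 ^ 5 := Nat.mul_le_mul h6 h7
        calc 2 * (4 + 1) * (9 * (4 + 1) ^ 4) ^ (n - 1) = 10 * 5625 ^ (n - 1) := by norm_num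
          _ ≤ 16384 ^ (n - 1) := h5
          _ = 4 ^ (7 * (n - 1)) := by rw [pow_mul]; norm_num
          _ ≤ 4 ^ ((n + 1) * (n - 1)) := Nat.pow_le_pow_right (by norm_num) (Nat.mul_le_mul_right _ (by omega))
      · have h8 : 9 * (q + 1) ^ 4 ≤ q ^ 6 := by
          have := pw (x := q) (Q := 5) (c := 9) (d := 1) (k := 4) (K := 6) h5 (by norm_num) (by norm_num) (by norm_num)
          omega
        have h9 : 2 * (q + 1) ≤ q ^ 2 := by nlinarith
        calc 2 * (q + 1) * (9 * (q + 1) ^ 4) ^ (n - 1) ≤ q ^ 2 * (q ^ 6) ^ (n - 1) :=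
              Nat.mul_le_mul h9 (Nat.pow_le_pow_left h8 _)
          _ = q ^ (6 * (n - 1) + 2) := by rw [← pow_mul, ← pow_add, add_comm]
          _ ≤ q ^ ((n + 1) * (n - 1)) := by
              apply Nat.pow_le_pow_right (by omega)
              obtain ⟨m, rfl⟩ := Nat.exists_eq_add_of_le' hn
              have : m + 6 - 1 = m + 5 := by omega
              rw [this]; nlinarith
  · refine finU h hr hrp le_rfl dd_U_le' (K := K) hK ?_
    rw [h1]
    have h5 := big_e hr hr2 hq he hRe hn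
    have h8 : 2 * (p ^ f + 1) ≤ (p ^ f) ^ 3 := by
      generalize p ^ f = q at *
      have : q ^ 3 = q * q * q := by ring
      rw [this]
      have h9 : 4 ≤ q * q := Nat.mul_le_mul hq hq
      nlinarith
    refine (Nat.mul_le_mul h8 h5).trans ?_
    rw [← pow_add]
    apply Nat.pow_le_pow_right (by omega)
    have h9 : 6 * n ≤ n ^ 2 := by nlinarith
    omega

theorem pc (x k : ℕ) : (x ^ k) ^ 4 = (x ^ 4) ^ k := by rw [← pow_mul, ← pow_mul, mul_comm]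

theorem A13 {A q : ℕ} (h5 : 5 ≤ q) (hA : A ≤ 2 * (q + 1) ^ 2) : (2 * A) ^ 4 ≤ q ^ 13 := by
  have h6 := pw (x := q) (Q := 5) (c := 256) (d := 1) (k := 8) (K := 13) h5 (by norm_num) (by norm_num) (by norm_num)
  calc (2 * A) ^ 4 ≤ (2 * (2 * (q + 1) ^ 2)) ^ 4 := Nat.pow_le_pow_left (by omega) 4
    _ = 256 * (q + 1) ^ 8 := by ring
    _ ≤ 1 * q ^ 13 := h6.le
    _ = q ^ 13 := one_mul _

theorem B7 {B q : ℕ} (h5 : 5 ≤ q) (hB : B ≤ 2 * (q + 1)) : B ^ 4 ≤ q ^ 7 := by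
  have h6 := pw (x := q) (Q := 5) (c := 16) (d := 1) (k := 4) (K := 7) h5 (by norm_num) (by norm_num) (by norm_num)
  calc B ^ 4 ≤ (2 * (q + 1)) ^ 4 := Nat.pow_le_pow_left hB 4
    _ = 16 * (q + 1) ^ 4 := by ring
    _ ≤ 1 * q ^ 7 := h6.le
    _ = q ^ 7 := one_mul _

theorem even3 {A B Z m : ℕ} (hm : 1 ≤ m) (hA : A ≤ 32) (hB : B ≤ 8) (hP4 : Z ^ 4 ≤ ((2 * A) ^ 4) ^ (m + 2) * B ^ 4) :
    2 * (3 + 1) * Z ^ 4 ≤ 3 ^ (4 * (m + 3) ^ 2 - 1) := by
  have hA4 : (2 * A) ^ 4 ≤ 2 ^ 24 := by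
    calc (2 * A) ^ 4 ≤ 64 ^ 4 := Nat.pow_le_pow_left (by omega) 4
      _ = 2 ^ 24 := by norm_num
  have hB4 : B ^ 4 ≤ 2 ^ 12 := by
    calc B ^ 4 ≤ 8 ^ 4 := Nat.pow_le_pow_left (by omega) 4
      _ = 2 ^ 12 := by norm_num
  have h6 : Z ^ 4 ≤ (2 ^ 24) ^ (m + 2) * 2 ^ 12 :=
    hP4.trans (Nat.mul_le_mul (Nat.pow_le_pow_left hA4 _) hB4)
  have h7 : (2 ^ 24) ^ (m + 2) ≤ (3 ^ 16) ^ (m + 2) := Nat.pow_le_pow_left (by norm_num) _
  have h8 : 4 * (m + 3) ^ 2 - 1 = 16 * (m + 2) + (4 * m ^ 2 + 8 * m + 3) := by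
    have : 4 * (m + 3) ^ 2 = 16 * (m + 2) + (4 * m ^ 2 + 8 * m + 3) + 1 := by ring
    omega
  have h9 : 3 ^ 15 ≤ 3 ^ (4 * m ^ 2 + 8 * m + 3) := Nat.pow_le_pow_right (by norm_num) (by nlinarith)
  calc 2 * (3 + 1) * Z ^ 4 ≤ 8 * ((2 ^ 24) ^ (m + 2) * 2 ^ 12) := Nat.mul_le_mul_left 8 h6
    _ = (2 ^ 24) ^ (m + 2) * 2 ^ 15 := by ring
    _ ≤ (3 ^ 16) ^ (m + 2) * 3 ^ (4 * m ^ 2 + 8 * m + 3) :=
        Nat.mul_le_mul h7 (le_trans (by norm_num) h9)
    _ = 3 ^ (4 * (m + 3) ^ 2 - 1) := by rw [← pow_mul, ← pow_add, h8]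

theorem even5 {A B Z q m : ℕ} (h5 : 5 ≤ q) (hA : A ≤ 2 * (q + 1) ^ 2) (hB : B ≤ 2 * (q + 1))
    (hP4 : Z ^ 4 ≤ ((2 * A) ^ 4) ^ (m + 2) * B ^ 4) : 2 * (q + 1) * Z ^ 4 ≤ q ^ (4 * (m + 3) ^ 2 - 1) := by
  have h6 : Z ^ 4 ≤ (q ^ 13) ^ (m + 2) * q ^ 7 :=
    hP4.trans (Nat.mul_le_mul (Nat.pow_le_pow_left (A13 h5 hA) _) (B7 h5 hB))
  have h9 : 2 * (q + 1) ≤ q ^ 2 := by nlinarith
  have h8 : 4 * (m + 3) ^ 2 - 1 = 4 * m ^ 2 + 24 * m + 35 := by
    have : 4 * (m + 3) ^ 2 = 4 * m ^ 2 + 24 * m + 35 + 1 := by ring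
    omega
  calc 2 * (q + 1) * Z ^ 4 ≤ q ^ 2 * ((q ^ 13) ^ (m + 2) * q ^ 7) := Nat.mul_le_mul h9 h6
    _ = q ^ (13 * (m + 2) + 9) := by rw [← pow_mul, ← pow_add, ← pow_add]; congr 1; ring
    _ ≤ q ^ (4 * (m + 3) ^ 2 - 1) := by
        rw [h8]
        exact Nat.pow_le_pow_right (by omega) (by nlinarith)

theorem odd3 {A Z m : ℕ} (hA : A ≤ 32) (hP4 : 16 * Z ^ 4 ≤ ((2 * A) ^ 4) ^ (m + 3)) :
    2 * (3 + 1) * Z ^ 4 ≤ 3 ^ (4 * (m + 3) ^ 2 + 4 * (m + 3)) := by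
  have hA4 : (2 * A) ^ 4 ≤ 2 ^ 24 := by
    calc (2 * A) ^ 4 ≤ 64 ^ 4 := Nat.pow_le_pow_left (by omega) 4
      _ = 2 ^ 24 := by norm_num
  have h7 : (2 ^ 24) ^ (m + 3) ≤ (3 ^ 16) ^ (m + 3) := Nat.pow_le_pow_left (by norm_num) _
  calc 2 * (3 + 1) * Z ^ 4 ≤ 16 * Z ^ 4 := Nat.mul_le_mul_right _ (by norm_num)
    _ ≤ ((2 * A) ^ 4) ^ (m + 3) := hP4
    _ ≤ (2 ^ 24) ^ (m + 3) := Nat.pow_le_pow_left hA4 _
    _ ≤ (3 ^ 16) ^ (m + 3) := h7
    _ = 3 ^ (16 * (m + 3)) := by rw [← pow_mul]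
    _ ≤ 3 ^ (4 * (m + 3) ^ 2 + 4 * (m + 3)) := Nat.pow_le_pow_right (by norm_num) (by nlinarith)

theorem odd5 {A Z q m : ℕ} (h5 : 5 ≤ q) (hA : A ≤ 2 * (q + 1) ^ 2) (hP4 : 16 * Z ^ 4 ≤ ((2 * A) ^ 4) ^ (m + 3)) :
    2 * (q + 1) * Z ^ 4 ≤ q ^ (4 * (m + 3) ^ 2 + 4 * (m + 3)) := by
  have h9 : 2 * (q + 1) ≤ q ^ 2 := by nlinarith
  have h6 : Z ^ 4 ≤ (q ^ 13) ^ (m + 3) := by
    have := hP4.trans (Nat.pow_le_pow_left (A13 h5 hA) (m + 3))
    omega
  calc 2 * (q + 1) * Z ^ 4 ≤ q ^ 2 * (q ^ 13) ^ (m + 3) := Nat.mul_le_mul h9 h6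
    _ = q ^ (13 * (m + 3) + 2) := by rw [← pow_mul, ← pow_add]; congr 1; ring
    _ ≤ q ^ (4 * (m + 3) ^ 2 + 4 * (m + 3)) := Nat.pow_le_pow_right (by omega) (by nlinarith)

/-- `U_n`, `n ≥ 6`, `r = 2` -/
theorem quart_Un_two {n p f M : ℕ} (h : Real (.U n) p f M) (hn : 6 ≤ n) (hrp : 2 ≠ p) : P 2 M ^ 4 < M := by
  have hq := h.q_ge
  have hodd := odd_q h hrp
  have hq3 : 3 ≤ p ^ f := by rcases hodd with ⟨k, hk⟩; omega
  have h1 := PU_two (n := n) hq3 hodd (by omega)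
  have hA := A_le hq3 hodd
  have hB := P_two_sq_sub_one_le hq3 hodd
  by_cases h63 : n = 6 ∧ p ^ f = 3
  · obtain ⟨rfl, hx⟩ := h63
    exact explicit2 h hrp hx (k := 14) (c := 194285) (d := 2) (by norm_num [num, Finset.prod_range_succ])
      (by norm_num) (by decide) (by rw [P_two_two]; norm_num [NN])
  have hodd3 : p ^ f < 5 → p ^ f = 3 := by
    intro h5; rcases hodd with ⟨j, hj⟩; omega
  rcases Nat.even_or_odd n with ⟨k, hk⟩ | ⟨k, hk⟩
  · -- `n = 2k`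
    have hn2 : n = 2 * k := by omega
    have e1 : (n + 1) / 2 - 1 = k - 1 := by omega
    have e2 : n / 2 + 1 - (n + 1) / 2 = 1 := by omega
    have e3 : n / 2 = k := by omega
    rw [e1, e2, e3, pow_one] at h1
    obtain ⟨m, rfl⟩ := Nat.exists_eq_add_of_le' (show 3 ≤ k by omega)
    have e4 : m + 3 - 1 = m + 2 := by omega
    rw [e4] at h1
    have hfac := pow_val_factorial_two_le (a := m + 3) (by omega)
    rw [e4] at hfac
    have hK : (4 * (m + 3) ^ 2 - 1) + 1 = n ^ 2 := by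
      have h5 : 1 ≤ 4 * (m + 3) ^ 2 := by nlinarith
      rw [Nat.sub_add_cancel h5, hn2]; ring
    refine finU h Nat.prime_two hrp le_rfl dd_U_le' hK ?_
    generalize P 2 (num (.U n) (p ^ f)) = Z at *
    generalize P 2 (p ^ f + 1) * P 2 ((p ^ f) ^ 2 - 1) = A at *
    generalize P 2 ((p ^ f) ^ 2 - 1) = B at *
    generalize p ^ f = q at *
    have hP : Z ≤ (2 * A) ^ (m + 2) * B := by
      rw [h1]
      calc _ ≤ A ^ (m + 2) * B * 2 ^ (m + 2) := Nat.mul_le_mul_left _ hfac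
        _ = _ := by rw [mul_pow 2]; ring
    have hP4 : Z ^ 4 ≤ ((2 * A) ^ 4) ^ (m + 2) * B ^ 4 := by
      refine (Nat.pow_le_pow_left hP 4).trans (le_of_eq ?_)
      rw [mul_pow, pc]
    rcases Nat.lt_or_ge q 5 with h5 | h5
    · have hq3' := hodd3 h5
      subst hq3'
      exact even3 (by
        by_contra hcon
        exact h63 ⟨by omega, rfl⟩) (by omega) (by omega) hP4
    · exact even5 h5 hA hB hP4
  · -- `n = 2k + 1`
    have e1 : (n + 1) / 2 - 1 = k := by omega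
    have e2 : n / 2 + 1 - (n + 1) / 2 = 0 := by omega
    have e3 : n / 2 = k := by omega
    rw [e1, e2, e3, pow_zero, mul_one] at h1
    obtain ⟨m, rfl⟩ := Nat.exists_eq_add_of_le' (show 3 ≤ k by omega)
    have hfac := pow_val_factorial_two_le (a := m + 3) (by omega)
    have e4 : m + 3 - 1 = m + 2 := by omega
    rw [e4] at hfac
    have hK : (4 * (m + 3) ^ 2 + 4 * (m + 3)) + 1 = n ^ 2 := by rw [hk]; ring
    refine finU h Nat.prime_two hrp le_rfl dd_U_le' hK ?_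
    generalize P 2 (num (.U n) (p ^ f)) = Z at *
    generalize P 2 (p ^ f + 1) * P 2 ((p ^ f) ^ 2 - 1) = A at *
    generalize p ^ f = q at *
    have hP : 2 * Z ≤ (2 * A) ^ (m + 3) := by
      rw [h1]
      calc _ ≤ 2 * (A ^ (m + 3) * 2 ^ (m + 2)) := Nat.mul_le_mul_left 2 (Nat.mul_le_mul_left _ hfac)
        _ = _ := by rw [mul_pow 2]; ring
    have hP4 : 16 * Z ^ 4 ≤ ((2 * A) ^ 4) ^ (m + 3) := by
      calc 16 * Z ^ 4 = (2 * Z) ^ 4 := by ring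
        _ ≤ ((2 * A) ^ (m + 3)) ^ 4 := Nat.pow_le_pow_left hP 4
        _ = _ := pc _ _
    rcases Nat.lt_or_ge q 5 with h5 | h5
    · have hq3' := hodd3 h5
      subst hq3'
      exact odd3 (by omega) hP4
    · exact odd5 h5 hA hP4

/-- `U_n`, `n ≥ 4` -/
theorem quart_U {n p f M r : ℕ} (h : Real (.U n) p f M) (hn : 4 ≤ n)
    (hex : ¬ ((n = 4 ∨ n = 5) ∧ (p ^ f = 2 ∨ p ^ f = 3))) (h67 : ¬ ((n = 6 ∨ n = 7) ∧ p ^ f = 2))
    (hr : r.Prime) (hrp : r ≠ p) : P r M ^ 4 < M := by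
  by_cases h4 : n = 4
  · subst h4
    exact quart_U4 h (fun h2 => hex ⟨Or.inl rfl, Or.inl h2⟩) (fun h3 => hex ⟨Or.inl rfl, Or.inr h3⟩) hr hrp
  by_cases h5 : n = 5
  · subst h5
    exact quart_U5 h (fun h2 => hex ⟨Or.inr rfl, Or.inl h2⟩) (fun h3 => hex ⟨Or.inr rfl, Or.inr h3⟩) hr hrp
  by_cases hr2 : r = 2
  · subst hr2
    exact quart_Un_two h (by omega) hrp
  · exact quart_Un_odd h (by omega) (fun h6 => h67 ⟨Or.inl h6.1, h6.2⟩) (fun h7 => h67 ⟨Or.inr h7.1, h7.2⟩) hr hrp hr2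

end Cfsg.Agent.H719.Quart
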