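import Mathlib
import Cfsg.Agent.H719.Quart.Exc
import Cfsg.Agent.H719.Quart.TypeU2
import Cfsg.Agent.H446.SmallCross
import Cfsg.Agent.H902.SameD

/-!
# Fourth roots: the theorem, and the codegree divisibility in different characteristics
-/

set_option autoImplicit false

namespace Cfsg.Agent.H719.Quart

open Finset Cfsg.Agent.H902.Lte Cfsg.Agent.H902.Art

/-- the exceptions -/
def exc18 : List (Sh × ℕ × ℕ) := [(.L 4, 3, 1), (.U 4, 2, 1), (.U 4, 3, 1), (.U 5, 2, 1), (.U 5, 3, 1), (.U 6, 2, 1), (.U 7, 2, 1), (.C 2, 3, 1), (.C 2, 5, 1), (.C 2, 7, 1), (.C 2, 3, 2), (.C 2, 17, 1), (.C 3, 2, 1), (.C 3, 3, 1), (.C 4, 3, 1), (.D 4, 2, 1), (.D 4, 3, 1), (.G2, 3, 1)]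

theorem pf_eq {p f q : ℕ} (hp : p.Prime) (hf : 1 ≤ f) (hq : q.Prime) (h : p ^ f = q) : p = q ∧ f = 1 := by
  have h1 : p ∣ q := by rw [← h]; exact dvd_pow_self p (by omega)
  have h2 := (Nat.prime_dvd_prime_iff_eq hp hq).1 h1
  subst h2
  refine ⟨rfl, ?_⟩
  have h3 : p ^ f = p ^ 1 := by rw [h, pow_one]
  exact Nat.pow_right_injective hp.two_le h3

theorem pf_nine {p f : ℕ} (hp : p.Prime) (h : p ^ f = 9) : p = 3 ∧ f = 2 := by
  have h0 : f ≠ 0 := by rintro rfl; norm_num at h
  have h1 : p ∣ 3 ^ 2 := by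
    have : p ∣ p ^ f := dvd_pow_self p h0
    rw [h] at this
    exact this
  have h2 := (Nat.prime_dvd_prime_iff_eq hp Nat.prime_three).1 (hp.dvd_of_dvd_pow h1)
  subst h2
  refine ⟨rfl, ?_⟩
  have h3 : 3 ^ f = 3 ^ 2 := by rw [h]; norm_num
  exact Nat.pow_right_injective (le_refl 2 |>.trans (by norm_num)) h3

/-- **The `r`-part of the order of a simple group of Lie type, `r` not the characteristic, is less than the fourth
root of the order**, except for `L₂`, `L₃`, `U₃` and 18 groups. -/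
theorem quart {X : Sh} {p f M r : ℕ} (h : Real X p f M) (h2 : X ≠ .L 2) (h3 : X ≠ .L 3) (hU : X ≠ .U 3)
    (hex : (X, p, f) ∉ exc18) (hr : r.Prime) (hrp : r ≠ p) : P r M ^ 4 < M := by
  have hp := h.hp
  have hf := h.hf
  have hok := h.ok
  have key : ∀ q : ℕ, q.Prime → p ^ f = q → (X, q, 1) ∉ exc18 := by
    intro q hq h4
    obtain ⟨rfl, rfl⟩ := pf_eq hp hf hq h4
    exact hex
  have k2 : p ^ f = 2 → (X, 2, 1) ∉ exc18 := key 2 Nat.prime_two
  have k3 : p ^ f = 3 → (X, 3, 1) ∉ exc18 := key 3 Nat.prime_three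
  cases X with
  | L n =>
    have hn : 2 ≤ n := hok.1
    have hn2 : n ≠ 2 := fun h => h2 (by rw [h])
    have hn3 : n ≠ 3 := fun h => h3 (by rw [h])
    refine H446.SmallCross.small_cross (by omega) h ?_ hr hrp
    rintro ⟨rfl, h4⟩
    exact k3 h4 (by decide)
  | U n =>
    have hn : 3 ≤ n := hok.1
    have hn3 : n ≠ 3 := fun h => hU (by rw [h])
    refine quart_U h (by omega) ?_ ?_ hr hrp
    · rintro ⟨rfl | rfl, h4 | h4⟩
      · exact k2 h4 (by decide)
      · exact k3 h4 (by decide)
      · exact k2 h4 (by decide)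
      · exact k3 h4 (by decide)
    · rintro ⟨rfl | rfl, h4⟩
      · exact k2 h4 (by decide)
      · exact k2 h4 (by decide)
  | C m =>
    have hm : 2 ≤ m := hok.1
    by_cases m2 : m = 2
    · subst m2
      refine quart_C2 h (fun h4 => k3 h4 (by decide)) (fun h4 => key 5 (by norm_num) h4 (by decide))
        (fun h4 => key 7 (by norm_num) h4 (by decide)) ?_ (fun h4 => key 17 (by norm_num) h4 (by decide)) hr hrp
      intro h4
      obtain ⟨rfl, rfl⟩ := pf_nine hp h4
      exact hex (by decide)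
    by_cases m3 : m = 3
    · subst m3
      exact quart_C3 h (fun h4 => k2 h4 (by decide)) (fun h4 => k3 h4 (by decide)) hr hrp
    by_cases m4 : m = 4
    · subst m4
      exact quart_C4 h (fun h4 => k3 h4 (by decide)) hr hrp
    exact quart_C h (by omega) hr hrp
  | D m =>
    have hm : 4 ≤ m := hok
    by_cases m4 : m = 4
    · subst m4
      exact quart_D4 h (fun h4 => k2 h4 (by decide)) (fun h4 => k3 h4 (by decide)) hr hrp
    exact quart_D h (by omega) hr hrp
  | DD m =>
    have hm : 4 ≤ m := hok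
    by_cases m4 : m = 4
    · subst m4
      exact quart_DD4 h hr hrp
    exact quart_DD h (by omega) hr hrp
  | G2 => exact quart_G2 h (fun h4 => k3 h4 (by decide)) hr hrp
  | F4 => exact Dom4.dom4 (by simp) h hr hrp
  | E6 => exact Dom4.dom4 (by simp) h hr hrp
  | E7 => exact Dom4.dom4 (by simp) h hr hrp
  | E8 => exact Dom4.dom4 (by simp) h hr hrp
  | TE6 => exact quart_TE6 h hr hrp
  | TD4 => exact quart_TD4 h hr hrp
  | Sz => exact quart_Sz h hr hrp
  | Ree => exact quart_Ree h hr hrp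
  | TF4 => exact quart_TF4 h hr hrp

theorem cross_lt {X Y : Sh} {p r f g N M k : ℕ} (hX : Real X p f N) (hY : Real Y r g M) (hk : N = k * M)
    (hlt : k * P r M ^ 2 < M) : N < P r N ^ 4 := by
  have h1 := hY.lt_cube
  have hr := hY.hp
  have hP : 0 < P r M := P_pos hr
  have h2 : k < P r M := by
    have h3 : k * P r M ^ 2 < P r M * P r M ^ 2 := by
      calc k * P r M ^ 2 < M := hlt
        _ < P r M ^ 3 := h1
        _ = _ := by ring
    exact Nat.lt_of_mul_lt_mul_right h3
  have h3 : P r M ≤ P r N := P_mono hr hX.M_ne (by rw [hk]; exact dvd_mul_left _ _)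
  calc N = k * M := hk
    _ ≤ P r M * M := Nat.mul_le_mul_right _ h2.le
    _ < P r M * P r M ^ 3 := Nat.mul_lt_mul_of_pos_left h1 hP
    _ = P r M ^ 4 := by ring
    _ ≤ P r N ^ 4 := Nat.pow_le_pow_left h3 4

/-- one exceptional group -/
theorem cross_fin {X Y : Sh} {p r f g N M k : ℕ} (hX : Real X p f N) (hY : Real Y r g M) (hr : r ≠ p)
    (hk : N = k * M) (hlt : k * P r M ^ 2 < M) (l : List (ℕ × ℕ)) (hval : val p (X, f) = pr l)
    (hp : ∀ x ∈ l, x.1.Prime) (r0 a : ℕ)
    (hc : ∀ x ∈ l, x.1 ≠ p → x.1 ≠ r0 → pr (l.filter fun y => y.1 = x.1) ^ 4 < pr l) (h1 : 1 < pr l)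
    (ha : pr (l.filter fun y => y.1 = r0) = r0 ^ a)
    (hfin : ∀ v ∈ List.range' 1 a, ∀ b ∈ ents r0 v, pr l % val r0 b = 0 →
      pr l / val r0 b * (r0 ^ v) ^ 2 < val r0 b → pr l = val r0 b) : k = 1 := by
  have h4 := cross_lt hX hY hk hlt
  have hrr := hY.hp
  rw [val_eq hX] at hval
  rw [hval] at h4
  have hM0 : M ≠ 0 := hY.M_ne
  have hr0 : r = r0 := by
    by_contra hne
    have h5 := P_pr hrr hp
    by_cases h : ∃ x ∈ l, x.1 = r
    · obtain ⟨x, hx, hxr⟩ := h
      have h6 := hc x hx (by rw [hxr]; exact hr) (by rw [hxr]; exact hne)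
      rw [hxr, ← h5] at h6
      omega
    · have h3 : l.filter (fun x => x.1 = r) = [] := by
        rw [List.filter_eq_nil_iff]
        intro x hx hxr
        exact h ⟨x, hx, by simpa using hxr⟩
      have h7 : P r (pr l) = 1 := by rw [h5, h3]; rfl
      rw [h7, one_pow] at h4
      omega
  subst hr0
  have hPN : P r N = r ^ a := by rw [hval, P_pr hrr hp, ha]
  have h3 : P r M ≤ P r N := P_mono hrr hX.M_ne (by rw [hk]; exact dvd_mul_left _ _)
  have hexp := P_prime_exp hY
  have hPM : P r M = r ^ (g * NN Y) := by rw [hexp]; rfl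
  rw [hPN, hPM] at h3
  have h5 : g * NN Y ≤ a := (Nat.pow_le_pow_iff_right hrr.one_lt).1 h3
  have h6 : 1 ≤ g * NN Y := Nat.mul_pos hY.hf (NN_pos hY)
  have h7 := hfin (g * NN Y) (by rw [List.mem_range'_1]; omega) (Y, g) (mem_ents hY rfl)
  rw [val_eq hY, ← hval, ← hPM] at h7
  have h8 : N / M = k := by rw [hk]; exact Nat.mul_div_cancel _ (Nat.pos_of_ne_zero hM0)
  have h9 := h7 (by rw [hk]; exact Nat.mul_mod_left _ _) (by rw [h8]; exact hlt)
  rw [h9] at h8
  rw [← h8, Nat.div_self (Nat.pos_of_ne_zero hM0)]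

/-- the exceptional groups -/
theorem cross_exc {X Y : Sh} {p r f g N M k : ℕ} (hX : Real X p f N) (hex : (X, p, f) ∈ exc18) (hY : Real Y r g M)
    (hr : r ≠ p) (hk : N = k * M) (hlt : k * P r M ^ 2 < M) : k = 1 := by
  unfold exc18 at hex
  simp only [List.mem_cons, List.not_mem_nil, or_false, Prod.mk.injEq] at hex
  rcases hex with ⟨rfl, rfl, rfl⟩ | ⟨rfl, rfl, rfl⟩ | ⟨rfl, rfl, rfl⟩ | ⟨rfl, rfl, rfl⟩ | ⟨rfl, rfl, rfl⟩ | ⟨rfl, rfl, rfl⟩ | ⟨rfl, rfl, rfl⟩ | ⟨rfl, rfl, rfl⟩ | ⟨rfl, rfl, rfl⟩ | ⟨rfl, rfl, rfl⟩ | ⟨rfl, rfl, rfl⟩ | ⟨rfl, rfl, rfl⟩ | ⟨rfl, rfl, rfl⟩ | ⟨rfl, rfl, rfl⟩ | ⟨rfl, rfl, rfl⟩ | ⟨rfl, rfl, rfl⟩ | ⟨rfl, rfl, rfl⟩ | ⟨rfl, rfl, rfl⟩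
  · exact cross_fin hX hY hr hk hlt [(2, 7), (3, 6), (5, 1), (13, 1)] (by decide +kernel) (by
      intro x hx
      fin_cases hx <;> norm_num) 2 7 (by decide +kernel) (by decide +kernel) (by decide +kernel)
      (by decide +kernel)
  · exact cross_fin hX hY hr hk hlt [(2, 6), (3, 4), (5, 1)] (by decide +kernel) (by
      intro x hx
      fin_cases hx <;> norm_num) 3 4 (by decide +kernel) (by decide +kernel) (by decide +kernel)
      (by decide +kernel)
  · exact cross_fin hX hY hr hk hlt [(2, 7), (3, 6), (5, 1), (7, 1)] (by decide +kernel) (by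
      intro x hx
      fin_cases hx <;> norm_num) 2 7 (by decide +kernel) (by decide +kernel) (by decide +kernel)
      (by decide +kernel)
  · exact cross_fin hX hY hr hk hlt [(2, 10), (3, 5), (5, 1), (11, 1)] (by decide +kernel) (by
      intro x hx
      fin_cases hx <;> norm_num) 3 5 (by decide +kernel) (by decide +kernel) (by decide +kernel)
      (by decide +kernel)
  · exact cross_fin hX hY hr hk hlt [(2, 11), (3, 10), (5, 1), (7, 1), (61, 1)] (by decide +kernel) (by
      intro x hx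
      fin_cases hx <;> norm_num) 2 11 (by decide +kernel) (by decide +kernel) (by decide +kernel)
      (by decide +kernel)
  · exact cross_fin hX hY hr hk hlt [(2, 15), (3, 6), (5, 1), (7, 1), (11, 1)] (by decide +kernel) (by
      intro x hx
      fin_cases hx <;> norm_num) 3 6 (by decide +kernel) (by decide +kernel) (by decide +kernel)
      (by decide +kernel)
  · exact cross_fin hX hY hr hk hlt [(2, 21), (3, 8), (5, 1), (7, 1), (11, 1), (43, 1)] (by decide +kernel) (by
      intro x hx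
      fin_cases hx <;> norm_num) 3 8 (by decide +kernel) (by decide +kernel) (by decide +kernel)
      (by decide +kernel)
  · exact cross_fin hX hY hr hk hlt [(2, 6), (3, 4), (5, 1)] (by decide +kernel) (by
      intro x hx
      fin_cases hx <;> norm_num) 2 6 (by decide +kernel) (by decide +kernel) (by decide +kernel)
      (by decide +kernel)
  · exact cross_fin hX hY hr hk hlt [(2, 6), (3, 2), (5, 4), (13, 1)] (by decide +kernel) (by
      intro x hx
      fin_cases hx <;> norm_num) 2 6 (by decide +kernel) (by decide +kernel) (by decide +kernel)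
      (by decide +kernel)
  · exact cross_fin hX hY hr hk hlt [(2, 8), (3, 2), (5, 2), (7, 4)] (by decide +kernel) (by
      intro x hx
      fin_cases hx <;> norm_num) 2 8 (by decide +kernel) (by decide +kernel) (by decide +kernel)
      (by decide +kernel)
  · exact cross_fin hX hY hr hk hlt [(2, 8), (3, 8), (5, 2), (41, 1)] (by decide +kernel) (by
      intro x hx
      fin_cases hx <;> norm_num) 2 8 (by decide +kernel) (by decide +kernel) (by decide +kernel)
      (by decide +kernel)
  · exact cross_fin hX hY hr hk hlt [(2, 10), (3, 4), (5, 1), (17, 4), (29, 1)] (by decide +kernel) (by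
      intro x hx
      fin_cases hx <;> norm_num) 2 10 (by decide +kernel) (by decide +kernel) (by decide +kernel)
      (by decide +kernel)
  · exact cross_fin hX hY hr hk hlt [(2, 9), (3, 4), (5, 1), (7, 1)] (by decide +kernel) (by
      intro x hx
      fin_cases hx <;> norm_num) 3 4 (by decide +kernel) (by decide +kernel) (by decide +kernel)
      (by decide +kernel)
  · exact cross_fin hX hY hr hk hlt [(2, 9), (3, 9), (5, 1), (7, 1), (13, 1)] (by decide +kernel) (by
      intro x hx
      fin_cases hx <;> norm_num) 2 9 (by decide +kernel) (by decide +kernel) (by decide +kernel)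
      (by decide +kernel)
  · exact cross_fin hX hY hr hk hlt [(2, 14), (3, 16), (5, 2), (7, 1), (13, 1), (41, 1)] (by decide +kernel) (by
      intro x hx
      fin_cases hx <;> norm_num) 2 14 (by decide +kernel) (by decide +kernel) (by decide +kernel)
      (by decide +kernel)
  · exact cross_fin hX hY hr hk hlt [(2, 12), (3, 5), (5, 2), (7, 1)] (by decide +kernel) (by
      intro x hx
      fin_cases hx <;> norm_num) 3 5 (by decide +kernel) (by decide +kernel) (by decide +kernel)
      (by decide +kernel)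
  · exact cross_fin hX hY hr hk hlt [(2, 12), (3, 12), (5, 2), (7, 1), (13, 1)] (by decide +kernel) (by
      intro x hx
      fin_cases hx <;> norm_num) 2 12 (by decide +kernel) (by decide +kernel) (by decide +kernel)
      (by decide +kernel)
  · exact cross_fin hX hY hr hk hlt [(2, 6), (3, 6), (7, 1), (13, 1)] (by decide +kernel) (by
      intro x hx
      fin_cases hx <;> norm_num) 2 6 (by decide +kernel) (by decide +kernel) (by decide +kernel)
      (by decide +kernel)

/-- **T-C.** Different characteristics, all shapes of `H` but `L₂`, `L₃`, `U₃`. -/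
theorem cross_one {X Y : Sh} {p r f g N M k : ℕ} (hX : Real X p f N) (h2 : X ≠ .L 2) (h3 : X ≠ .L 3)
    (hU : X ≠ .U 3) (hY : Real Y r g M) (hr : r ≠ p) (hk : N = k * M) (hlt : k * P r M ^ 2 < M) :
    k = 1 := by
  by_cases hex : (X, p, f) ∈ exc18
  · exact cross_exc hX hex hY hr hk hlt
  · exfalso
    have h4 := cross_lt hX hY hk hlt
    have h5 := quart hX h2 h3 hU hex hY.hp hr
    omega

end Cfsg.Agent.H719.Quart
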