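import Mathlib
import Cfsg.Agent.H719.Quart.Exc
import Cfsg.Agent.H719.Quart.TypeU
import Cfsg.Agent.H66.Cod.SameB

/-!
# Equal characteristic: the part of the order prime to the characteristic determines the order
-/

set_option autoImplicit false

namespace Cfsg.Agent.H719.Quart

open Finset Cfsg.Agent.H902.Lte Cfsg.Agent.H902.Art
open Cfsg.Agent.H66.Cod (Eqn)

/-! ### exponents -/

/-- lower exponent -/
def LE : Sh → ℕ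
  | .L n => n * (n + 1) / 2 - 2
  | .C m => m * (m + 1) - 1
  | .U n => n * (n + 1) / 2 - 2
  | .D m => m ^ 2 - 1
  | .DD m => m ^ 2 - 1
  | .G2 => 7
  | .F4 => 24
  | .E6 => 36
  | .E7 => 63
  | .E8 => 120
  | .TE6 => 41
  | .TD4 => 15
  | .Sz => 2
  | .Ree => 3
  | .TF4 => 13

/-- upper exponent -/
def UE : Sh → ℕ
  | .L n => n * (n + 1) / 2 - 1
  | .C m => m * (m + 1)
  | .U n => n * (n + 1) / 2 - 1
  | .D m => m ^ 2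
  | .DD m => m ^ 2 + 1
  | .G2 => 8
  | .F4 => 28
  | .E6 => 42
  | .E7 => 70
  | .E8 => 128
  | .TE6 => 42
  | .TD4 => 17
  | .Sz => 3
  | .Ree => 4
  | .TF4 => 14

theorem halfL {q a N : ℕ} (hq : 2 ≤ q) (ha : 1 ≤ a) (h : q ^ a < 2 * N) : q ^ (a - 1) ≤ N := by
  obtain ⟨b, rfl⟩ := Nat.exists_eq_add_of_le' ha
  rw [Nat.add_sub_cancel]
  rw [pow_succ] at h
  have h1 : q ^ b * 2 ≤ q ^ b * q := Nat.mul_le_mul_left _ hq
  omega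

theorem tri {n : ℕ} (hn : 2 ≤ n) : 3 ≤ n * (n + 1) / 2 := by
  rw [Nat.le_div_iff_mul_le (by norm_num)]; nlinarith

theorem lo_num {X : Sh} {p f M : ℕ} (h : Real X p f M) : (p ^ f) ^ LE X ≤ num X (p ^ f) := by
  have hq := h.q_ge
  have hok := h.ok
  cases X with
  | L n =>
    have hn : 2 ≤ n := hok.1
    have h1 := numL_gt hq hn
    have h3 := tri hn
    have h2 := halfL hq (by omega) h1
    have h4 : LE (.L n) = n * (n + 1) / 2 - 1 - 1 := by show n * (n + 1) / 2 - 2 = _; omega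
    rw [h4]; exact h2
  | C m =>
    have hm : 2 ≤ m := hok.1
    have h1 := prodC_gt hq (show 1 ≤ m by omega)
    have h3 : 1 ≤ m * (m + 1) := by nlinarith
    show (p ^ f) ^ (m * (m + 1) - 1) ≤ ∏ i ∈ range m, ((p ^ f) ^ (2 * (i + 1)) - 1)
    obtain ⟨b, hb⟩ := Nat.exists_eq_add_of_le' h3
    rw [hb] at h1 ⊢
    rw [Nat.add_sub_cancel]
    rw [pow_succ] at h1
    have h5 : (p ^ f) ^ b * 2 ≤ (p ^ f) ^ b * (p ^ f) := Nat.mul_le_mul_left _ hq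
    omega
  | U n =>
    have hn : 3 ≤ n := hok.1
    have h1 := numU_gt hq (show 2 ≤ n by omega)
    have h3 := tri (show 2 ≤ n by omega)
    have h2 := halfL hq (by omega) h1
    have h4 : LE (.U n) = n * (n + 1) / 2 - 1 - 1 := by show n * (n + 1) / 2 - 2 = _; omega
    rw [h4]; exact h2
  | D m =>
    have hm : 4 ≤ m := hok
    have h1 := numD_gt hq hm
    show (p ^ f) ^ (m ^ 2 - 1) ≤ _
    obtain ⟨b, hb⟩ := Nat.exists_eq_add_of_le' (show 1 ≤ m ^ 2 by nlinarith)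
    rw [hb] at h1 ⊢
    rw [Nat.add_sub_cancel]
    rw [pow_succ] at h1
    have h5 : (p ^ f) ^ b * 2 ≤ (p ^ f) ^ b * (p ^ f) := Nat.mul_le_mul_left _ hq
    omega
  | DD m =>
    have hm : 4 ≤ m := hok
    have h1 := numDD_gt hq hm
    show (p ^ f) ^ (m ^ 2 - 1) ≤ _
    obtain ⟨b, hb⟩ := Nat.exists_eq_add_of_le' (show 1 ≤ m ^ 2 by nlinarith)
    rw [hb] at h1 ⊢
    rw [Nat.add_sub_cancel]
    rw [pow_succ] at h1
    have h5 : (p ^ f) ^ b * 2 ≤ (p ^ f) ^ b * (p ^ f) := Nat.mul_le_mul_left _ hq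
    omega
  | G2 =>
    show (p ^ f) ^ 7 ≤ ((p ^ f) ^ 2 - 1) * ((p ^ f) ^ 6 - 1)
    generalize p ^ f = q at *
    have h1 : 3 * q ^ 2 ≤ 4 * (q ^ 2 - 1) := by
      have : 4 ≤ q ^ 2 := by nlinarith
      omega
    have h2 : 63 * q ^ 6 ≤ 64 * (q ^ 6 - 1) := by
      have : 2 ^ 6 ≤ q ^ 6 := Nat.pow_le_pow_left hq 6
      omega
    have h3 := Nat.mul_le_mul h1 h2
    have h4 : (3 * q ^ 2) * (63 * q ^ 6) = 189 * (q * q ^ 7) := by ring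
    have h5 : (4 * (q ^ 2 - 1)) * (64 * (q ^ 6 - 1)) = 256 * ((q ^ 2 - 1) * (q ^ 6 - 1)) := by ring
    rw [h4, h5] at h3
    have h6 : 2 * q ^ 7 ≤ q * q ^ 7 := Nat.mul_le_mul_right _ hq
    omega
  | F4 => exact H66.Cod.F4_low hq
  | E6 => exact H66.Cod.E6_low hq
  | E7 => exact H66.Cod.E7_low hq
  | E8 => exact H66.Cod.E8_low hq
  | TE6 =>
    show (p ^ f) ^ 41 ≤ ((p ^ f) ^ 2 - 1) * ((p ^ f) ^ 5 + 1) * ((p ^ f) ^ 6 - 1) * ((p ^ f) ^ 8 - 1) *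
      ((p ^ f) ^ 9 + 1) * ((p ^ f) ^ 12 - 1)
    generalize p ^ f = q at *
    have h1 : 3 * q ^ 2 ≤ 4 * (q ^ 2 - 1) := by
      have : 4 ≤ q ^ 2 := by nlinarith
      omega
    have h2 : 63 * q ^ 6 ≤ 64 * (q ^ 6 - 1) := by
      have : 2 ^ 6 ≤ q ^ 6 := Nat.pow_le_pow_left hq 6
      omega
    have h3 : 63 * q ^ 8 ≤ 64 * (q ^ 8 - 1) := by
      have : 2 ^ 8 ≤ q ^ 8 := Nat.pow_le_pow_left hq 8
      omega
    have h4 : 63 * q ^ 12 ≤ 64 * (q ^ 12 - 1) := by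
      have : 2 ^ 12 ≤ q ^ 12 := Nat.pow_le_pow_left hq 12
      omega
    have h5 := Nat.mul_le_mul (Nat.mul_le_mul (Nat.mul_le_mul (Nat.mul_le_mul (Nat.mul_le_mul h1
      (Nat.le_add_right (q ^ 5) 1)) h2) h3) (Nat.le_add_right (q ^ 9) 1)) h4
    have h6 : 3 * q ^ 2 * q ^ 5 * (63 * q ^ 6) * (63 * q ^ 8) * q ^ 9 * (63 * q ^ 12) = 750141 * (q * q ^ 41) := by ring
    have h7 : 4 * (q ^ 2 - 1) * (q ^ 5 + 1) * (64 * (q ^ 6 - 1)) * (64 * (q ^ 8 - 1)) * (q ^ 9 + 1) *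
        (64 * (q ^ 12 - 1)) = 1048576 * ((q ^ 2 - 1) * (q ^ 5 + 1) * (q ^ 6 - 1) * (q ^ 8 - 1) * (q ^ 9 + 1) *
        (q ^ 12 - 1)) := by ring
    rw [h6, h7] at h5
    have h8 : 2 * q ^ 41 ≤ q * q ^ 41 := Nat.mul_le_mul_right _ hq
    omega
  | TD4 =>
    show (p ^ f) ^ 15 ≤ ((p ^ f) ^ 2 - 1) * ((p ^ f) ^ 6 - 1) * ((p ^ f) ^ 8 + (p ^ f) ^ 4 + 1)
    generalize p ^ f = q at *
    have h1 : 3 * q ^ 2 ≤ 4 * (q ^ 2 - 1) := by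
      have : 4 ≤ q ^ 2 := by nlinarith
      omega
    have h2 : 63 * q ^ 6 ≤ 64 * (q ^ 6 - 1) := by
      have : 2 ^ 6 ≤ q ^ 6 := Nat.pow_le_pow_left hq 6
      omega
    have h5 := Nat.mul_le_mul (Nat.mul_le_mul h1 h2) (show q ^ 8 ≤ q ^ 8 + q ^ 4 + 1 by omega)
    have h6 : 3 * q ^ 2 * (63 * q ^ 6) * q ^ 8 = 189 * (q * q ^ 15) := by ring
    have h7 : 4 * (q ^ 2 - 1) * (64 * (q ^ 6 - 1)) * (q ^ 8 + q ^ 4 + 1) =
      256 * ((q ^ 2 - 1) * (q ^ 6 - 1) * (q ^ 8 + q ^ 4 + 1)) := by ring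
    rw [h6, h7] at h5
    have h8 : 2 * q ^ 15 ≤ q * q ^ 15 := Nat.mul_le_mul_right _ hq
    omega
  | Sz =>
    show (p ^ f) ^ 2 ≤ (p ^ f - 1) * ((p ^ f) ^ 2 + 1)
    generalize p ^ f = q at *
    have : 1 * (q ^ 2 + 1) ≤ (q - 1) * (q ^ 2 + 1) := Nat.mul_le_mul_right _ (by omega)
    omega
  | Ree =>
    show (p ^ f) ^ 3 ≤ (p ^ f - 1) * ((p ^ f) ^ 3 + 1)
    generalize p ^ f = q at *
    have : 1 * (q ^ 3 + 1) ≤ (q - 1) * (q ^ 3 + 1) := Nat.mul_le_mul_right _ (by omega)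
    omega
  | TF4 =>
    show (p ^ f) ^ 13 ≤ (p ^ f - 1) * ((p ^ f) ^ 3 + 1) * ((p ^ f) ^ 4 - 1) * ((p ^ f) ^ 6 + 1)
    have hf : 3 ≤ f := hok.2.2
    have hq8 : 8 ≤ p ^ f := by
      calc 8 = 2 ^ 3 := by norm_num
        _ ≤ p ^ 3 := Nat.pow_le_pow_left h.hp.two_le 3
        _ ≤ p ^ f := Nat.pow_le_pow_right h.hp.pos hf
    generalize p ^ f = q at *
    have h1 : 7 * q ≤ 8 * (q - 1) := by omega
    have h2 : 7 * q ^ 4 ≤ 8 * (q ^ 4 - 1) := by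
      have : 2 ^ 4 ≤ q ^ 4 := Nat.pow_le_pow_left hq 4
      omega
    have h5 := Nat.mul_le_mul (Nat.mul_le_mul (Nat.mul_le_mul h1 (Nat.le_add_right (q ^ 3) 1)) h2)
      (Nat.le_add_right (q ^ 6) 1)
    have h6 : 7 * q * q ^ 3 * (7 * q ^ 4) * q ^ 6 = 49 * (q * q ^ 13) := by ring
    have h7 : 8 * (q - 1) * (q ^ 3 + 1) * (8 * (q ^ 4 - 1)) * (q ^ 6 + 1) =
      64 * ((q - 1) * (q ^ 3 + 1) * (q ^ 4 - 1) * (q ^ 6 + 1)) := by ring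
    rw [h6, h7] at h5
    have h8 : 2 * q ^ 13 ≤ q * q ^ 13 := Nat.mul_le_mul_right _ hq
    omega

theorem up_num {X : Sh} {p f M : ℕ} (h : Real X p f M) : num X (p ^ f) ≤ (p ^ f) ^ UE X := by
  have hq := h.q_ge
  have hok := h.ok
  have hsub : ∀ q k : ℕ, q ^ k - 1 ≤ q ^ k := fun q k => Nat.sub_le _ _
  have hup : ∀ n : ℕ, 1 ≤ n → n * (n + 1) / 2 - 1 = (n - 1) * (n - 1 + 3) / 2 := by
    intro n hn
    obtain ⟨k, rfl⟩ := Nat.exists_eq_add_of_le' hn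
    rw [Nat.add_sub_cancel]
    have : (k + 1) * (k + 1 + 1) = k * (k + 3) + 2 := by ring
    omega
  have hev : ∀ k : ℕ, k * (k + 3) / 2 * 2 = k * (k + 3) := by
    intro k
    apply Nat.div_mul_cancel
    have : k * (k + 3) = k * (k + 1) + 2 * k := by ring
    rw [this]
    exact dvd_add (Nat.even_mul_succ_self k).two_dvd (dvd_mul_right _ _)
  cases X with
  | L n =>
    have hn : 2 ≤ n := hok.1
    have h1 := numL_sq_le (q := p ^ f) (n - 1)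
    show num (.L n) (p ^ f) ≤ (p ^ f) ^ (n * (n + 1) / 2 - 1)
    rw [hup n (by omega)]
    apply le_of_sq_le
    rw [← pow_mul, hev]
    exact h1
  | U n =>
    have hn : 3 ≤ n := hok.1
    have h1 := numU_sq_le hq (n - 1)
    show num (.U n) (p ^ f) ≤ (p ^ f) ^ (n * (n + 1) / 2 - 1)
    rw [hup n (by omega)]
    apply le_of_sq_le
    rw [← pow_mul, hev]
    exact h1
  | C m => exact prodC_le m
  | D m =>
    have hm : 4 ≤ m := hok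
    obtain ⟨k, rfl⟩ := Nat.exists_eq_add_of_le' (show 1 ≤ m by omega)
    have h1 : num (.D (k + 1)) (p ^ f) ≤ (p ^ f) ^ (k + 1) * (p ^ f) ^ (k * (k + 1)) :=
      Nat.mul_le_mul (hsub _ _) (prodC_le k)
    rw [← pow_add] at h1
    have h2 : UE (.D (k + 1)) = k + 1 + k * (k + 1) := by show (k + 1) ^ 2 = _; ring
    rw [h2]; exact h1
  | DD m =>
    have hm : 4 ≤ m := hok
    obtain ⟨k, rfl⟩ := Nat.exists_eq_add_of_le' (show 1 ≤ m by omega)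
    have h0 : (p ^ f) ^ (k + 1) + 1 ≤ (p ^ f) ^ (k + 1 + 1) := H66.Cod.hp1 hq _
    have h1 : num (.DD (k + 1)) (p ^ f) ≤ (p ^ f) ^ (k + 1 + 1) * (p ^ f) ^ (k * (k + 1)) :=
      Nat.mul_le_mul h0 (prodC_le k)
    rw [← pow_add] at h1
    have h2 : UE (.DD (k + 1)) = k + 1 + 1 + k * (k + 1) := by show (k + 1) ^ 2 + 1 = _; ring
    rw [h2]; exact h1
  | G2 =>
    calc ((p ^ f) ^ 2 - 1) * ((p ^ f) ^ 6 - 1) ≤ (p ^ f) ^ 2 * (p ^ f) ^ 6 := Nat.mul_le_mul (hsub _ _) (hsub _ _)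
      _ = (p ^ f) ^ 8 := by rw [← pow_add]
  | F4 =>
    calc ((p ^ f) ^ 2 - 1) * ((p ^ f) ^ 6 - 1) * ((p ^ f) ^ 8 - 1) * ((p ^ f) ^ 12 - 1) ≤
          (p ^ f) ^ 2 * (p ^ f) ^ 6 * (p ^ f) ^ 8 * (p ^ f) ^ 12 :=
          Nat.mul_le_mul (Nat.mul_le_mul (Nat.mul_le_mul (hsub _ _) (hsub _ _)) (hsub _ _)) (hsub _ _)
      _ = (p ^ f) ^ 28 := by rw [← pow_add, ← pow_add, ← pow_add]
  | E6 =>
    show ((p ^ f) ^ 2 - 1) * ((p ^ f) ^ 5 - 1) * ((p ^ f) ^ 6 - 1) * ((p ^ f) ^ 8 - 1) * ((p ^ f) ^ 9 - 1) *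
      ((p ^ f) ^ 12 - 1) ≤ _
    calc _ ≤ (p ^ f) ^ 2 * (p ^ f) ^ 5 * (p ^ f) ^ 6 * (p ^ f) ^ 8 * (p ^ f) ^ 9 * (p ^ f) ^ 12 :=
          Nat.mul_le_mul (Nat.mul_le_mul (Nat.mul_le_mul (Nat.mul_le_mul (Nat.mul_le_mul (hsub _ _) (hsub _ _))
            (hsub _ _)) (hsub _ _)) (hsub _ _)) (hsub _ _)
      _ = (p ^ f) ^ 42 := by rw [← pow_add, ← pow_add, ← pow_add, ← pow_add, ← pow_add]
  | E7 =>
    show ((p ^ f) ^ 2 - 1) * ((p ^ f) ^ 6 - 1) * ((p ^ f) ^ 8 - 1) * ((p ^ f) ^ 10 - 1) * ((p ^ f) ^ 12 - 1) *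
      ((p ^ f) ^ 14 - 1) * ((p ^ f) ^ 18 - 1) ≤ _
    calc _ ≤ (p ^ f) ^ 2 * (p ^ f) ^ 6 * (p ^ f) ^ 8 * (p ^ f) ^ 10 * (p ^ f) ^ 12 * (p ^ f) ^ 14 * (p ^ f) ^ 18 :=
          Nat.mul_le_mul (Nat.mul_le_mul (Nat.mul_le_mul (Nat.mul_le_mul (Nat.mul_le_mul (Nat.mul_le_mul
            (hsub _ _) (hsub _ _)) (hsub _ _)) (hsub _ _)) (hsub _ _)) (hsub _ _)) (hsub _ _)
      _ = (p ^ f) ^ 70 := by rw [← pow_add, ← pow_add, ← pow_add, ← pow_add, ← pow_add, ← pow_add]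
  | E8 =>
    show ((p ^ f) ^ 2 - 1) * ((p ^ f) ^ 8 - 1) * ((p ^ f) ^ 12 - 1) * ((p ^ f) ^ 14 - 1) * ((p ^ f) ^ 18 - 1) *
      ((p ^ f) ^ 20 - 1) * ((p ^ f) ^ 24 - 1) * ((p ^ f) ^ 30 - 1) ≤ _
    calc _ ≤ (p ^ f) ^ 2 * (p ^ f) ^ 8 * (p ^ f) ^ 12 * (p ^ f) ^ 14 * (p ^ f) ^ 18 * (p ^ f) ^ 20 * (p ^ f) ^ 24 *
            (p ^ f) ^ 30 :=
          Nat.mul_le_mul (Nat.mul_le_mul (Nat.mul_le_mul (Nat.mul_le_mul (Nat.mul_le_mul (Nat.mul_le_mul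
            (Nat.mul_le_mul (hsub _ _) (hsub _ _)) (hsub _ _)) (hsub _ _)) (hsub _ _)) (hsub _ _)) (hsub _ _))
            (hsub _ _)
      _ = (p ^ f) ^ 128 := by rw [← pow_add, ← pow_add, ← pow_add, ← pow_add, ← pow_add, ← pow_add, ← pow_add]
  | TE6 =>
    show ((p ^ f) ^ 2 - 1) * ((p ^ f) ^ 5 + 1) * ((p ^ f) ^ 6 - 1) * ((p ^ f) ^ 8 - 1) * ((p ^ f) ^ 9 + 1) *
      ((p ^ f) ^ 12 - 1) ≤ (p ^ f) ^ 42
    generalize p ^ f = q at *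
    have h1 : (q ^ 2 - 1) * (q ^ 5 + 1) ≤ q ^ 7 := by
      obtain ⟨t, ht⟩ := Nat.exists_eq_add_of_le' (Nat.one_le_pow 2 q (by omega))
      have h2 : q ^ 7 = (t + 1) * q ^ 5 := by rw [← ht]; ring
      have h3 : q ^ 2 ≤ q ^ 5 := Nat.pow_le_pow_right (by omega) (by norm_num)
      rw [h2, ht, Nat.add_sub_cancel]
      nlinarith
    have h4 : (q ^ 8 - 1) * (q ^ 9 + 1) ≤ q ^ 17 := by
      obtain ⟨t, ht⟩ := Nat.exists_eq_add_of_le' (Nat.one_le_pow 8 q (by omega))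
      have h2 : q ^ 17 = (t + 1) * q ^ 9 := by rw [← ht]; ring
      have h3 : q ^ 8 ≤ q ^ 9 := Nat.pow_le_pow_right (by omega) (by norm_num)
      rw [h2, ht, Nat.add_sub_cancel]
      nlinarith
    calc (q ^ 2 - 1) * (q ^ 5 + 1) * (q ^ 6 - 1) * (q ^ 8 - 1) * (q ^ 9 + 1) * (q ^ 12 - 1) =
          ((q ^ 2 - 1) * (q ^ 5 + 1)) * (q ^ 6 - 1) * ((q ^ 8 - 1) * (q ^ 9 + 1)) * (q ^ 12 - 1) := by ring
      _ ≤ q ^ 7 * q ^ 6 * q ^ 17 * q ^ 12 :=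
          Nat.mul_le_mul (Nat.mul_le_mul (Nat.mul_le_mul h1 (hsub _ _)) h4) (hsub _ _)
      _ = q ^ 42 := by ring
  | TD4 =>
    show ((p ^ f) ^ 2 - 1) * ((p ^ f) ^ 6 - 1) * ((p ^ f) ^ 8 + (p ^ f) ^ 4 + 1) ≤ (p ^ f) ^ 17
    generalize p ^ f = q at *
    have h1 : q ^ 8 + q ^ 4 + 1 ≤ q ^ 9 := by
      have h2 := H66.Cod.hp1 hq 4
      have h3 : q ^ (4 + 1) ≤ q ^ 8 := Nat.pow_le_pow_right (by omega) (by norm_num)
      have h4 : q ^ 9 = q * q ^ 8 := by ring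
      have h5 : 2 * q ^ 8 ≤ q * q ^ 8 := Nat.mul_le_mul_right _ hq
      rw [h4]; omega
    calc (q ^ 2 - 1) * (q ^ 6 - 1) * (q ^ 8 + q ^ 4 + 1) ≤ q ^ 2 * q ^ 6 * q ^ 9 :=
          Nat.mul_le_mul (Nat.mul_le_mul (hsub _ _) (hsub _ _)) h1
      _ = q ^ 17 := by ring
  | Sz =>
    show (p ^ f - 1) * ((p ^ f) ^ 2 + 1) ≤ (p ^ f) ^ 3
    generalize p ^ f = q at *
    obtain ⟨t, ht⟩ := Nat.exists_eq_add_of_le' (show 1 ≤ q by omega)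
    rw [ht, Nat.add_sub_cancel]
    nlinarith
  | Ree =>
    show (p ^ f - 1) * ((p ^ f) ^ 3 + 1) ≤ (p ^ f) ^ 4
    generalize p ^ f = q at *
    have h1 : (q - 1) * (q ^ 3 + 1) + q ^ 3 + 1 = q ^ 4 + q := by
      have : 1 ≤ q := by omega
      zify [this]; ring
    have h2 : q ^ 1 ≤ q ^ 3 := Nat.pow_le_pow_right (by omega) (by norm_num)
    rw [pow_one] at h2
    omega
  | TF4 =>
    show (p ^ f - 1) * ((p ^ f) ^ 3 + 1) * ((p ^ f) ^ 4 - 1) * ((p ^ f) ^ 6 + 1) ≤ (p ^ f) ^ 14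
    generalize p ^ f = q at *
    have h1 : (q - 1) * (q ^ 3 + 1) ≤ q ^ 4 := by
      have h1 : (q - 1) * (q ^ 3 + 1) + q ^ 3 + 1 = q ^ 4 + q := by
        have : 1 ≤ q := by omega
        zify [this]; ring
      have h2 : q ^ 1 ≤ q ^ 3 := Nat.pow_le_pow_right (by omega) (by norm_num)
      rw [pow_one] at h2
      omega
    have h4 : (q ^ 4 - 1) * (q ^ 6 + 1) ≤ q ^ 10 := by
      obtain ⟨t, ht⟩ := Nat.exists_eq_add_of_le' (Nat.one_le_pow 4 q (by omega))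
      have h2 : q ^ 10 = (t + 1) * q ^ 6 := by rw [← ht]; ring
      have h3 : q ^ 4 ≤ q ^ 6 := Nat.pow_le_pow_right (by omega) (by norm_num)
      rw [h2, ht, Nat.add_sub_cancel]
      nlinarith
    calc (q - 1) * (q ^ 3 + 1) * (q ^ 4 - 1) * (q ^ 6 + 1) = ((q - 1) * (q ^ 3 + 1)) * ((q ^ 4 - 1) * (q ^ 6 + 1)) := by
          ring
      _ ≤ q ^ 4 * q ^ 10 := Nat.mul_le_mul h1 h4
      _ = q ^ 14 := by ring

/-! ### the comparison -/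

theorem exp_ineq {X Y : Sh} {p f g N M : ℕ} (hX : Real X p f N) (hY : Real Y p g M)
    (hE : Eqn X Y (p ^ f) (p ^ g)) : p ^ (f * LE X) ≤ dd X (p ^ f) * p ^ (g * UE Y) := by
  have h1 := lo_num hX
  have h2 := up_num hY
  have h3 : 1 ≤ dd Y (p ^ g) := Nat.pos_of_ne_zero hY.dd_ne
  rw [pow_mul, pow_mul]
  calc (p ^ f) ^ LE X ≤ num X (p ^ f) := h1
    _ ≤ dd Y (p ^ g) * num X (p ^ f) := Nat.le_mul_of_pos_left _ h3
    _ = dd X (p ^ f) * num Y (p ^ g) := hE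
    _ ≤ dd X (p ^ f) * (p ^ g) ^ UE Y := Nat.mul_le_mul_left _ h2

theorem contra {X Y : Sh} {p f g N M e : ℕ} (hX : Real X p f N) (hY : Real Y p g M)
    (hE : Eqn X Y (p ^ f) (p ^ g)) (hd : dd X (p ^ f) < p ^ e) (hc : g * UE Y + e ≤ f * LE X) : False := by
  have h := exp_ineq hX hY hE
  have hp := hX.hp
  have h2 : p ^ (g * UE Y) * p ^ e ≤ p ^ (f * LE X) := by
    rw [← pow_add]
    exact Nat.pow_le_pow_right hp.pos hc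
  have h3 : 0 < p ^ (g * UE Y) := pow_pos hp.pos _
  have h4 : p ^ (g * UE Y) * dd X (p ^ f) < p ^ (g * UE Y) * p ^ e := Nat.mul_lt_mul_of_pos_left hd h3
  have h5 : dd X (p ^ f) * p ^ (g * UE Y) = p ^ (g * UE Y) * dd X (p ^ f) := mul_comm _ _
  omega

theorem lt_pow_c {p c D e d : ℕ} (hp : 2 ≤ p) (hd : d ≤ D) (hD : D < 2 ^ c) (hce : c ≤ e) : d < p ^ e :=
  calc d ≤ D := hd
    _ < 2 ^ c := hD
    _ ≤ p ^ c := Nat.pow_le_pow_left hp c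
    _ ≤ p ^ e := Nat.pow_le_pow_right (by omega) hce

end Cfsg.Agent.H719.Quart
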