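import Mathlib
import Cfsg.Agent.H719.Quart.SameP

/-!
# Equal characteristic: the part of the order prime to the characteristic determines the order, II
-/

set_option autoImplicit false

namespace Cfsg.Agent.H719.Quart

open Finset Cfsg.Agent.H902.Lte Cfsg.Agent.H902.Art
open Cfsg.Agent.H66.Cod (Eqn Tgt)

/-! ### pairs of shapes with one large exponent -/

theorem dd_C_lt {m q : ℕ} (hq : 2 ≤ q) : dd (.C m) q < q := by
  have h : Nat.gcd 2 (q - 1) ≤ q - 1 := Nat.gcd_le_right _ (by omega)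
  show Nat.gcd 2 (q - 1) < q
  omega

/-- different values of `kap` -/
theorem typB_diff {X Y : Sh} {p f g N M : ℕ} (hX : Real X p f N) (hY : Real Y p g M)
    (hE : Eqn X Y (p ^ f) (p ^ g)) (hD : f * DM X = g * DM Y)
    (hXB : X = .C 2 ∨ X = .G2 ∨ X = .TD4 ∨ X = .TF4) (hYB : Y = .L 2 ∨ Y = .U 3 ∨ Y = .Sz ∨ Y = .Ree) :
    False := by
  have hq := hX.q_ge
  have hf := hX.hf
  refine contra hX hY hE (e := f) ?_ ?_
  · rcases hXB with rfl | rfl | rfl | rfl
    · exact dd_C_lt hq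
    · show 1 < p ^ f; omega
    · show 1 < p ^ f; omega
    · show 1 < p ^ f; omega
  · rcases hXB with rfl | rfl | rfl | rfl <;> rcases hYB with rfl | rfl | rfl | rfl
    all_goals
      simp only [DM, LE, UE] at hD ⊢
      norm_num at hD ⊢
      omega

/-- equal values of `kap` -/
theorem typB_same {X Y : Sh} {p f g N M : ℕ} (hX : Real X p f N) (hY : Real Y p g M)
    (hc : Eqn X Y (p ^ f) (p ^ g)) (hD : f * DM X = g * DM Y) (h : SpecB X Y) : False := by
  unfold Eqn at hc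
  have hqX := hX.q_ge
  have hqY := hY.q_ge
  have hf := hX.hf
  have hg := hY.hf
  have hp := hX.hp
  have eL2 : ∀ q, num (.L 2) q = q ^ 2 - 1 := by
    intro q
    show ∏ i ∈ range 1, (q ^ (i + 2) - 1) = _
    rw [Finset.prod_range_one]
  have eU3 : ∀ q, num (.U 3) q = (q ^ 2 - 1) * (q ^ 3 + 1) := by
    intro q
    show ∏ i ∈ range 2, (if Even i then q ^ (i + 2) - 1 else q ^ (i + 2) + 1) = _
    rw [Finset.prod_range_succ, Finset.prod_range_one]
    simp
  have eC2 : ∀ q, num (.C 2) q = (q ^ 2 - 1) * (q ^ 4 - 1) := by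
    intro q
    show ∏ i ∈ range 2, (q ^ (2 * (i + 1)) - 1) = _
    rw [Finset.prod_range_succ, Finset.prod_range_one]
  have dL2 : ∀ q, dd (.L 2) q ≤ 2 := fun q => Nat.gcd_le_left _ (by norm_num)
  have dC2 : ∀ q, dd (.C 2) q ≤ 2 := fun q => Nat.gcd_le_left _ (by norm_num)
  have dU3 : ∀ q, dd (.U 3) q ≤ 3 := fun q => Nat.gcd_le_left _ (by norm_num)
  have dU3' : ∀ q, 1 ≤ dd (.U 3) q := fun q => Nat.gcd_pos_of_pos_left _ (by norm_num)
  have dSz : ∀ q, dd .Sz q = 1 := fun q => rfl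
  have dRee : ∀ q, dd .Ree q = 1 := fun q => rfl
  have dG2 : ∀ q, dd .G2 q = 1 := fun q => rfl
  have dTD4 : ∀ q, dd .TD4 q = 1 := fun q => rfl
  have dTF4 : ∀ q, dd .TF4 q = 1 := fun q => rfl
  have pw : ∀ a b : ℕ, p ^ (a * b) = (p ^ b) ^ a := fun a b => by rw [mul_comm, pow_mul]
  rcases h with ⟨rfl, rfl⟩ | ⟨rfl, rfl⟩ | ⟨rfl, rfl⟩ | ⟨rfl, rfl⟩ | ⟨rfl, rfl⟩ | ⟨rfl, rfl⟩ | ⟨rfl, rfl⟩ | ⟨rfl, rfl⟩ |
    ⟨rfl, rfl⟩ | ⟨rfl, rfl⟩ | ⟨rfl, rfl⟩ | ⟨rfl, rfl⟩
  · -- L2, U3
    have h2 : f * 2 = g * 6 := hD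
    have h1 : f = 3 * g := by omega
    subst h1
    rw [pw, eL2, eU3] at hc
    exact ar_L2U3 hqY (dU3' _) (dL2 _) hc
  · -- L2, Sz
    have h2 : f * 2 = g * 4 := hD
    have h1 : f = 2 * g := by omega
    subst h1
    rw [pw, eL2, dSz, one_mul] at hc
    exact ar_L2Sz hqY (dL2 _) hc
  · -- L2, Ree
    have h2 : f * 2 = g * 6 := hD
    have h1 : f = 3 * g := by omega
    subst h1
    rw [pw, eL2, dRee, one_mul] at hc
    exact ar_L2Ree hqY (dL2 _) hc
  · -- U3, Ree
    have h2 : f * 6 = g * 6 := hD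
    have h1 : f = g := by omega
    subst h1
    rw [eU3, dRee, one_mul] at hc
    have hok : p = 3 ∧ Odd f ∧ 3 ≤ f := hY.ok
    refine ar_U3Ree ?_ (dU3 _) hc
    rw [hok.1]; exact Nat.le_self_pow (by omega) 3
  · -- U3, Sz
    have h2 : f * 6 = g * 4 := hD
    obtain ⟨k, hk⟩ : ∃ k, g = 3 * k := ⟨g / 3, by omega⟩
    have h1 : f = 2 * k := by omega
    subst h1 hk
    have ht : 2 ≤ p ^ k := hp.two_le.trans (Nat.le_self_pow (by omega) p)
    rw [pw, pw, eU3, dSz, one_mul] at hc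
    exact ar_U3Sz ht (dU3 _) hc
  · -- Sz, Ree
    have h1 : p = 2 ∧ Odd f ∧ 3 ≤ f := hX.ok
    have h2 : p = 3 ∧ Odd g ∧ 3 ≤ g := hY.ok
    omega
  · -- C2, G2
    have h2 : f * 4 = g * 6 := hD
    obtain ⟨k, hk⟩ : ∃ k, g = 2 * k := ⟨g / 2, by omega⟩
    have h1 : f = 3 * k := by omega
    subst h1 hk
    have ht : 2 ≤ p ^ k := hp.two_le.trans (Nat.le_self_pow (by omega) p)
    rw [pw, pw, eC2, dG2, one_mul] at hc
    exact ar_C2G2 ht (dC2 _) hc
  · -- C2, TD4
    have h2 : f * 4 = g * 12 := hD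
    have h1 : f = 3 * g := by omega
    subst h1
    rw [pw, eC2, dTD4, one_mul] at hc
    exact ar_C2TD4 hqY (dC2 _) hc
  · -- C2, TF4
    have h2 : f * 4 = g * 12 := hD
    have h1 : f = 3 * g := by omega
    subst h1
    rw [pw, eC2, dTF4, one_mul] at hc
    exact ar_C2TF4 hqY (dC2 _) hc
  · -- G2, TD4
    have h2 : f * 6 = g * 12 := hD
    have h1 : f = 2 * g := by omega
    subst h1
    rw [pw, dTD4, dG2, one_mul, one_mul] at hc
    exact ar_G2TD4 hqY hc
  · -- G2, TF4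
    have h2 : f * 6 = g * 12 := hD
    have h1 : f = 2 * g := by omega
    subst h1
    rw [pw, dTF4, dG2, one_mul, one_mul] at hc
    exact ar_G2TF4 hqY hc
  · -- TD4, TF4
    have h2 : f * 12 = g * 12 := hD
    have h1 : f = g := by omega
    subst h1
    rw [dTF4, dTD4, one_mul, one_mul] at hc
    exact ar_TD4TF4 hqY hc

/-- the shapes with one large exponent -/
theorem typB_eq {X Y : Sh} {p f g N M : ℕ} (hX : Real X p f N) (hY : Real Y p g M)
    (hE : Eqn X Y (p ^ f) (p ^ g)) (hD : f * DM X = g * DM Y) (hBX : ¬ DM X < 2 * BM X)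
    (hBY : ¬ DM Y < 2 * BM Y) : X = Y := by
  have hTX := typB hX hBX
  have hTY := typB hY hBY
  by_cases hk : kap X = kap Y
  · rcases pairsB hTX hTY hk with h | h | h
    · exact h
    · exact (typB_same hX hY hE hD h).elim
    · exact (typB_same hY hX hE.symm hD.symm h).elim
  · exfalso
    have cl : ∀ {Z : Sh} {D k : ℕ}, TypB Z D k → ((k = 4 ∧ (Z = .C 2 ∨ Z = .G2 ∨ Z = .TD4 ∨ Z = .TF4)) ∨
        (k = 2 ∧ (Z = .L 2 ∨ Z = .U 3 ∨ Z = .Sz ∨ Z = .Ree))) := by
      intro Z D k h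
      cases h <;> simp
    rcases cl hTX with ⟨h1, h2⟩ | ⟨h1, h2⟩ <;> rcases cl hTY with ⟨h3, h4⟩ | ⟨h3, h4⟩
    · exact hk (h1.trans h3.symm)
    · exact typB_diff hX hY hE hD h2 h4
    · exact typB_diff hY hX hE.symm hD.symm h4 h2
    · exact hk (h1.trans h3.symm)

/-! ### pairs of shapes with two large exponents -/

/-- the pairs of shapes with two large exponents and the same ratio, none of them `L_n` (`n ≥ 4`), `F₄`, `E₆`, `E₇`,
`E₈` -/
def PairN (X Y : Sh) : Prop :=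
  (∃ n, 3 ≤ n ∧ X = .D (n + 1) ∧ Y = .C n) ∨ (∃ n, 4 ≤ n ∧ X = .C n ∧ Y = .DD n) ∨
    (∃ n, 4 ≤ n ∧ X = .D (n + 1) ∧ Y = .DD n) ∨ (X = .C 3 ∧ Y = .L 3) ∨ (X = .D 4 ∧ Y = .L 3) ∨
    (X = .L 3 ∧ Y = .U 4) ∨ (X = .TE6 ∧ Y = .L 3) ∨ (X = .C 3 ∧ Y = .U 4) ∨ (X = .TE6 ∧ Y = .C 3) ∨
    (X = .D 4 ∧ Y = .U 4) ∨ (X = .D 4 ∧ Y = .TE6) ∨ (X = .TE6 ∧ Y = .U 4) ∨
    (∃ n, 2 ≤ n ∧ X = .U (2 * n + 2) ∧ Y = .U (2 * n + 1))

theorem pairsN {X Y : Sh} {D d k D' d' k' : ℕ} (hX : TypA X D d k) (hY : TypA Y D' d' k')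
    (hD : D * d' = D' * d) (h1 : ¬ Tgt X) (h2 : ¬ Tgt Y) : X = Y ∨ PairN X Y ∨ PairN Y X := by
  have t1 : ∀ n, 4 ≤ n → Tgt (.L n) := fun n hn => Or.inl ⟨n, hn, rfl⟩
  have t2 : Tgt .F4 := by unfold Tgt; simp
  have t3 : Tgt .E6 := by unfold Tgt; simp
  have t4 : Tgt .E7 := by unfold Tgt; simp
  have t5 : Tgt .E8 := by unfold Tgt; simp
  have tL : ∀ n, ¬ Tgt (.L n) → n < 4 := fun n h => by
    by_contra hcon
    exact h (t1 n (by omega))
  cases hX <;> cases hY <;>
    first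
      | exact Or.inl rfl
      | exact absurd t2 h1
      | exact absurd t3 h1
      | exact absurd t4 h1
      | exact absurd t5 h1
      | exact absurd t2 h2
      | exact absurd t3 h2
      | exact absurd t4 h2
      | exact absurd t5 h2
      | (exfalso; omega)
      | (left; congr 1; omega)
      | (exfalso; have hL := tL _ h1; omega)
      | (exfalso; have hL := tL _ h2; omega)
      | (right; left; unfold PairN; simp; done)
      | (right; right; unfold PairN; simp; done)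
      | (have hL := tL _ h1; right; left; unfold PairN; simp; omega)
      | (have hL := tL _ h1; right; right; unfold PairN; simp; omega)
      | (have hL := tL _ h2; right; left; unfold PairN; simp; omega)
      | (have hL := tL _ h2; right; right; unfold PairN; simp; omega)
      | (right; left; exact Or.inl ⟨_, by assumption, by congr 1; omega, rfl⟩)
      | (right; right; exact Or.inl ⟨_, by assumption, by congr 1; omega, rfl⟩)
      | (right; left; exact Or.inr (Or.inl ⟨_, by assumption, by congr 1; omega, rfl⟩))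
      | (right; right; exact Or.inr (Or.inl ⟨_, by assumption, by congr 1; omega, rfl⟩))
      | (right; left; exact Or.inr (Or.inr (Or.inl ⟨_, by assumption, by congr 1; omega, rfl⟩)))
      | (right; right; exact Or.inr (Or.inr (Or.inl ⟨_, by assumption, by congr 1; omega, rfl⟩)))
      | (right; left; unfold PairN; simp; omega)
      | (right; right; unfold PairN; simp; omega)

theorem pairN_false {X Y : Sh} {p f g N M : ℕ} (hX : Real X p f N) (hY : Real Y p g M)
    (hE : Eqn X Y (p ^ f) (p ^ g)) (hD : f * DM X = g * DM Y) (h : PairN X Y) : False := by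
  have hp := hX.hp
  have hf := hX.hf
  have hg := hY.hf
  have hq := hX.q_ge
  rcases h with ⟨n, hn, rfl, rfl⟩ | ⟨n, hn, rfl, rfl⟩ | ⟨n, hn, rfl, rfl⟩ | ⟨rfl, rfl⟩ | ⟨rfl, rfl⟩ | ⟨rfl, rfl⟩ |
    ⟨rfl, rfl⟩ | ⟨rfl, rfl⟩ | ⟨rfl, rfl⟩ | ⟨rfl, rfl⟩ | ⟨rfl, rfl⟩ | ⟨rfl, rfl⟩ | ⟨n, hn, rfl, rfl⟩
  · have h1 : f = g := by
      have h2 : f * (2 * n) = g * (2 * n) := hD
      exact Nat.eq_of_mul_eq_mul_right (by omega) h2
    subst h1
    refine contra hX hY hE (e := 3 * f) (lt_pow_c hp.two_le dd_D_le (c := 3) (by norm_num) (by omega)) ?_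
    show f * (n * (n + 1)) + 3 * f ≤ f * ((n + 1) ^ 2 - 1)
    have h3 : n * (n + 1) + 3 ≤ (n + 1) ^ 2 - 1 := by
      have : (n + 1) ^ 2 = n * (n + 1) + n + 1 := by ring
      omega
    calc f * (n * (n + 1)) + 3 * f = f * (n * (n + 1) + 3) := by ring
      _ ≤ _ := Nat.mul_le_mul_left _ h3
  · have h1 : f = g := by
      have h2 : f * (2 * n) = g * (2 * n) := hD
      exact Nat.eq_of_mul_eq_mul_right (by omega) h2
    subst h1
    refine contra hX hY hE (e := f) (dd_C_lt hq) ?_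
    show f * (n ^ 2 + 1) + f ≤ f * (n * (n + 1) - 1)
    have h3 : n ^ 2 + 1 + 1 ≤ n * (n + 1) - 1 := by
      have : n * (n + 1) = n ^ 2 + n := by ring
      omega
    calc f * (n ^ 2 + 1) + f = f * (n ^ 2 + 1 + 1) := by ring
      _ ≤ _ := Nat.mul_le_mul_left _ h3
  · have h1 : f = g := by
      have h2 : f * (2 * n) = g * (2 * n) := hD
      exact Nat.eq_of_mul_eq_mul_right (by omega) h2
    subst h1
    refine contra hX hY hE (e := 3 * f) (lt_pow_c hp.two_le dd_D_le (c := 3) (by norm_num) (by omega)) ?_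
    show f * (n ^ 2 + 1) + 3 * f ≤ f * ((n + 1) ^ 2 - 1)
    have h3 : n ^ 2 + 1 + 3 ≤ (n + 1) ^ 2 - 1 := by
      have : (n + 1) ^ 2 = n ^ 2 + 2 * n + 1 := by ring
      omega
    calc f * (n ^ 2 + 1) + 3 * f = f * (n ^ 2 + 1 + 3) := by ring
      _ ≤ _ := Nat.mul_le_mul_left _ h3
  · have h2 : f * 6 = g * 3 := hD
    refine contra hX hY hE (e := f) (dd_C_lt hq) ?_
    show g * 5 + f ≤ f * 11
    omega
  · have h2 : f * 6 = g * 3 := hD
    refine contra hX hY hE (e := 3 * f) (lt_pow_c hp.two_le dd_D_le (c := 3) (by norm_num) (by omega)) ?_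
    show g * 5 + 3 * f ≤ f * 15
    omega
  · have h2 : f * 3 = g * 6 := hD
    have h1 : f = 2 * g := by omega
    subst h1
    have hqq : p ^ (2 * g) = (p ^ g) ^ 2 := by rw [mul_comm, pow_mul]
    rw [hqq] at hE
    unfold Eqn at hE
    refine ar_L3U4 hY.q_ge (a := dd (.U 4) (p ^ g)) (b := dd (.L 3) ((p ^ g) ^ 2)) (Nat.gcd_pos_of_pos_left _ (by norm_num))
      (gcd3 _) ?_
    have e1 : num (.L 3) ((p ^ g) ^ 2) = (((p ^ g) ^ 2) ^ 2 - 1) * (((p ^ g) ^ 2) ^ 3 - 1) := by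
      show ∏ i ∈ range 2, (((p ^ g) ^ 2) ^ (i + 2) - 1) = _
      rw [Finset.prod_range_succ, Finset.prod_range_one]
    have e2 : num (.U 4) (p ^ g) = ((p ^ g) ^ 2 - 1) * ((p ^ g) ^ 3 + 1) * ((p ^ g) ^ 4 - 1) := by
      show ∏ i ∈ range 3, (if Even i then (p ^ g) ^ (i + 2) - 1 else (p ^ g) ^ (i + 2) + 1) = _
      rw [Finset.prod_range_succ, Finset.prod_range_succ, Finset.prod_range_one]
      simp
    rw [e1, e2] at hE
    exact hE
  · have h2 : f * 18 = g * 3 := hD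
    have hd : dd .TE6 (p ^ f) ≤ 3 := Nat.gcd_le_left _ (by norm_num)
    refine contra hX hY hE (e := 2 * f) (lt_pow_c hp.two_le hd (c := 2) (by norm_num) (by omega)) ?_
    show g * 5 + 2 * f ≤ f * 41
    omega
  · have h2 : f * 6 = g * 6 := hD
    refine contra hX hY hE (e := f) (dd_C_lt hq) ?_
    show g * 9 + f ≤ f * 11
    omega
  · have h2 : f * 18 = g * 6 := hD
    have hd : dd .TE6 (p ^ f) ≤ 3 := Nat.gcd_le_left _ (by norm_num)
    refine contra hX hY hE (e := 2 * f) (lt_pow_c hp.two_le hd (c := 2) (by norm_num) (by omega)) ?_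
    show g * 12 + 2 * f ≤ f * 41
    omega
  · have h2 : f * 6 = g * 6 := hD
    refine contra hX hY hE (e := 3 * f) (lt_pow_c hp.two_le dd_D_le (c := 3) (by norm_num) (by omega)) ?_
    show g * 9 + 3 * f ≤ f * 15
    omega
  · have h2 : f * 6 = g * 18 := hD
    refine contra hX hY hE (e := f) (lt_pow_c hp.two_le dd_D_le (c := 3) (by norm_num) (by omega)) ?_
    show g * 42 + f ≤ f * 15
    omega
  · have h2 : f * 18 = g * 6 := hD
    have hd : dd .TE6 (p ^ f) ≤ 3 := Nat.gcd_le_left _ (by norm_num)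
    refine contra hX hY hE (e := 2 * f) (lt_pow_c hp.two_le hd (c := 2) (by norm_num) (by omega)) ?_
    show g * 9 + 2 * f ≤ f * 41
    omega
  · have hD1 : DM (.U (2 * n + 2)) = 4 * n + 2 := by
      show (if Even (2 * n + 2) then 2 * (2 * n + 2 - 1) else 2 * (2 * n + 2)) = _
      rw [if_pos ⟨n + 1, by ring⟩]; omega
    have hD2 : DM (.U (2 * n + 1)) = 4 * n + 2 := by
      show (if Even (2 * n + 1) then 2 * (2 * n + 1 - 1) else 2 * (2 * n + 1)) = _
      rw [if_neg (Nat.not_even_iff_odd.2 ⟨n, rfl⟩)]; omega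
    rw [hD1, hD2] at hD
    have h1 : f = g := Nat.eq_of_mul_eq_mul_right (by omega) hD
    subst h1
    have hd : dd (.U (2 * n + 2)) (p ^ f) < p ^ (2 * f) := by
      refine lt_of_le_of_lt dd_U_le' ?_
      have : p ^ (2 * f) = p ^ f * p ^ f := by rw [two_mul, pow_add]
      rw [this]; nlinarith
    refine contra hX hY hE (e := 2 * f) hd ?_
    show f * ((2 * n + 1) * (2 * n + 1 + 1) / 2 - 1) + 2 * f ≤ f * ((2 * n + 2) * (2 * n + 2 + 1) / 2 - 2)
    have h3 : (2 * n + 1) * (2 * n + 1 + 1) / 2 = (2 * n + 1) * (n + 1) := by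
      have : (2 * n + 1) * (2 * n + 1 + 1) = 2 * ((2 * n + 1) * (n + 1)) := by ring
      rw [this, Nat.mul_div_cancel_left _ (by norm_num)]
    have h4 : (2 * n + 2) * (2 * n + 2 + 1) / 2 = (2 * n + 1) * (n + 1) + (2 * n + 2) := by
      have : (2 * n + 2) * (2 * n + 2 + 1) = 2 * ((2 * n + 1) * (n + 1) + (2 * n + 2)) := by ring
      rw [this, Nat.mul_div_cancel_left _ (by norm_num)]
    rw [h3, h4]
    calc f * ((2 * n + 1) * (n + 1) - 1) + 2 * f = f * ((2 * n + 1) * (n + 1) - 1 + 2) := by ring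
      _ ≤ _ := Nat.mul_le_mul_left _ (by omega)

/-- the pairs with one shape among `L_n` (`n ≥ 4`), `F₄`, `E₆`, `E₇`, `E₈` -/
theorem tgt_eq {X Y : Sh} {p f g N M : ℕ} (hT : Tgt X) (hX : Real X p f N) (hY : Real Y p g M)
    (hE : Eqn X Y (p ^ f) (p ^ g)) (hD : f * DM X = g * DM Y) (hTX : TypA X (DM X) (DM X - BM X) (kap X))
    (hTY : TypA Y (DM Y) (DM Y - BM Y) (kap Y)) (hcr : DM X * (DM Y - BM Y) = DM Y * (DM X - BM X)) : X = Y := by
  have hf := hX.hf
  have hg := hY.hf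
  have hdX := H66.Cod.dd_pos hX
  have hdY := H66.Cod.dd_pos hY
  have tp : ∀ e : ℕ, 1 ≤ e → 2 ≤ p ^ e := fun e he => hX.hp.two_le.trans (Nat.le_self_pow (by omega) p)
  have hq : ∀ a b : ℕ, p ^ (a * b) = (p ^ b) ^ a := fun a b => by rw [mul_comm, pow_mul]
  rcases H66.Cod.pairs_tgt hT hTX hTY hcr with h | ⟨n, hn, rfl, h⟩ | ⟨rfl, rfl⟩ | ⟨rfl, rfl⟩ | ⟨rfl, h⟩ |
      ⟨rfl, h⟩ | ⟨rfl, h⟩ | ⟨rfl, h⟩
  · exact h
  · exfalso
    have h1 : f = 2 * g := by
      have h2 : f * n = g * (2 * n) := by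
        rcases h with rfl | rfl | rfl
        · exact hD
        · exact hD
        · exact hD
      have h3 : f * n = (2 * g) * n := by rw [h2]; ring
      exact Nat.eq_of_mul_eq_mul_right (by omega) h3
    subst h1
    rw [hq 2 g] at hE hdX
    rcases h with rfl | rfl | rfl
    · exact H66.Cod.ser_LC hn (tp g hg) hE hdX
    · exact H66.Cod.ser_LD hn (tp g hg) hE hdX
    · exact H66.Cod.ser_LDD hn (tp g hg) hE hdY
  · exfalso
    have h1 : f = 3 * g := by
      have h2 : f * 4 = g * 12 := hD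
      omega
    subst h1
    rw [hq 3 g] at hE hdX
    exact H66.Cod.E6_L4 (tp g hg) hE.symm hdX
  · exfalso
    have h1 : f = 6 * g := by
      have h2 : f * 5 = g * 30 := hD
      omega
    subst h1
    rw [hq 6 g] at hE hdX
    exact H66.Cod.E8_L5 (tp g hg) hE.symm hdX
  · exfalso
    rcases h with rfl | rfl | rfl | rfl | rfl
    · have h1 : g = 4 * f := by
        have h2 : f * 12 = g * 3 := hD
        omega
      subst h1
      rw [hq 4 f] at hE hdY
      exact H66.Cod.F4_L3 (tp f hf) hE hdY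
    · have h1 : g = 2 * f := by
        have h2 : f * 12 = g * 6 := hD
        omega
      subst h1
      rw [hq 2 f] at hE hdY
      exact H66.Cod.F4_C3 (tp f hf) hE hdY
    · have h1 : g = 2 * f := by
        have h2 : f * 12 = g * 6 := hD
        omega
      subst h1
      rw [hq 2 f] at hE hdY
      exact H66.Cod.F4_U4 (tp f hf) hE hdY
    · have h1 : g = 2 * f := by
        have h2 : f * 12 = g * 6 := hD
        omega
      subst h1
      rw [hq 2 f] at hE
      exact H66.Cod.F4_D4 (tp f hf) hE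
    · obtain ⟨e, rfl⟩ : ∃ e, f = 3 * e := by
        have h2 : f * 12 = g * 18 := hD
        exact ⟨f / 3, by omega⟩
      have h1 : g = 2 * e := by
        have h2 : 3 * e * 12 = g * 18 := hD
        omega
      subst h1
      rw [hq 3 e, hq 2 e] at hE
      exact H66.Cod.F4_TE6 (tp e (by omega)) hE
  · exfalso
    rcases h with rfl | rfl | rfl | rfl
    · have h1 : g = 3 * f := by
        have h2 : f * 12 = g * 4 := hD
        omega
      subst h1
      rw [hq 3 f] at hE hdY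
      exact H66.Cod.E6_L4 (tp f hf) hE hdY
    all_goals
      obtain ⟨e, rfl⟩ : ∃ e, f = 2 * e := by
        have h2 : f * 12 = g * 8 := hD
        exact ⟨f / 2, by omega⟩
      have h1 : g = 3 * e := by
        have h2 : 2 * e * 12 = g * 8 := hD
        omega
      subst h1
      rw [hq 2 e, hq 3 e] at hE
      rw [hq 3 e] at hdY
    · exact H66.Cod.E6_C4 (tp e (by omega)) hE hdY
    · exact H66.Cod.E6_DD4 (tp e (by omega)) hE hdY
    · exact H66.Cod.E6_D5 (tp e (by omega)) hE hdY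
  · exfalso
    have h1 : g = f := by
      rcases h with rfl | rfl
      · have h2 : f * 18 = g * 18 := hD
        omega
      · have h2 : f * 18 = g * 18 := hD
        omega
    subst h1
    rcases h with rfl | rfl
    · exact H66.Cod.E7_U9 (tp g hg) hE hdY
    · exact H66.Cod.E7_U10 (tp g hg) hE hdY
  · exfalso
    rcases h with rfl | h
    · have h1 : g = 6 * f := by
        have h2 : f * 30 = g * 5 := hD
        omega
      subst h1
      rw [hq 6 f] at hE hdY
      exact H66.Cod.E8_L5 (tp f hf) hE hdY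
    · have h1 : g = 3 * f := by
        rcases h with rfl | rfl | rfl
        · have h2 : f * 30 = g * 10 := hD
          omega
        · have h2 : f * 30 = g * 10 := hD
          omega
        · have h2 : f * 30 = g * 10 := hD
          omega
      subst h1
      rw [hq 3 f] at hE hdY
      rcases h with rfl | rfl | rfl
      · exact H66.Cod.E8_C5 (tp f hf) hE hdY
      · exact H66.Cod.E8_DD5 (tp f hf) hE hdY
      · exact H66.Cod.E8_D6 (tp f hf) hE hdY

/-- the shapes with two large exponents -/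
theorem typA_eq {X Y : Sh} {p f g N M : ℕ} (hX : Real X p f N) (hY : Real Y p g M)
    (hE : Eqn X Y (p ^ f) (p ^ g)) (hD : f * DM X = g * DM Y) (hBX : DM X < 2 * BM X)
    (hBY : DM Y < 2 * BM Y) (hcr : DM X * (DM Y - BM Y) = DM Y * (DM X - BM X)) : X = Y := by
  have hTX := typA hX hBX
  have hTY := typA hY hBY
  by_cases h1 : Tgt X
  · exact tgt_eq h1 hX hY hE hD hTX hTY hcr
  by_cases h2 : Tgt Y
  · exact (tgt_eq h2 hY hX hE.symm hD.symm hTY hTX hcr.symm).symm
  rcases pairsN hTX hTY hcr h1 h2 with h | h | h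
  · exact h
  · exact (pairN_false hX hY hE hD h).elim
  · exact (pairN_false hY hX hE.symm hD.symm h).elim

end Cfsg.Agent.H719.Quart
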